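import Mathlib

/-! `2`-adic valuations of the orders of the groups of Lie type (helper790). -/

set_option autoImplicit false

namespace Cfsg.Agent.H790.Frm

/-- the valuation of `q ^ k - 1`, `k` even -/
theorem val_even {q k : ℕ} (hq : q % 2 = 1) (hq1 : 1 < q) (hk : k ≠ 0) (he : Even k) :
    padicValNat 2 (q ^ k - 1) + 1 = padicValNat 2 (q + 1) + padicValNat 2 (q - 1) + padicValNat 2 k := by
  have := padicValNat.pow_two_sub_pow (x := q) (y := 1) (n := k) hq1 (by omega) (by omega) hk he
  rwa [one_pow] at this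

/-- the valuation of `q ^ k - 1`, `k` odd -/
theorem val_odd {q k : ℕ} (hq : q % 2 = 1) (hq1 : 1 < q) (ho : Odd k) :
    padicValNat 2 (q ^ k - 1) = padicValNat 2 (q - 1) := by
  have h1 : (∑ i ∈ Finset.range k, q ^ i) * (q - 1) = q ^ k - 1 := by
    have h2 := geom_sum_mul_add (q - 1) k
    rw [Nat.sub_add_cancel hq1.le] at h2
    omega
  have h3 : (∑ i ∈ Finset.range k, q ^ i) % 2 = 1 := by
    rw [Finset.sum_nat_mod]
    have h4 : ∀ i ∈ Finset.range k, q ^ i % 2 = 1 := by
      intro i _
      rw [Nat.pow_mod, hq, one_pow]; rfl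
    rw [Finset.sum_congr rfl h4]
    rw [Finset.sum_const, Finset.card_range, smul_eq_mul, mul_one]
    exact Nat.odd_iff.1 ho
  rw [← h1, padicValNat.mul (by intro h; rw [h] at h3; omega) (by omega), padicValNat.eq_zero_of_not_dvd (by omega),
    zero_add]

/-- the valuation of `q ^ k + 1`, `k` odd -/
theorem val_odd_add {q k : ℕ} (hq : q % 2 = 1) (hq1 : 1 < q) (ho : Odd k) :
    padicValNat 2 (q ^ k + 1) = padicValNat 2 (q + 1) := by
  have hk : k ≠ 0 := by rintro rfl; exact absurd ho (by decide)
  have h1 := val_even hq hq1 (k := k * 2) (by omega) (even_two.mul_left k)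
  have h2 := val_odd hq hq1 ho
  have hqk : 1 < q ^ k := Nat.one_lt_pow hk hq1
  have h3 : q ^ (k * 2) - 1 = (q ^ k - 1) * (q ^ k + 1) := by
    rw [pow_mul, Nat.mul_comm]
    have := Nat.sq_sub_sq (q ^ k) 1
    rw [one_pow] at this
    exact this
  have h4 : padicValNat 2 (k * 2) = 1 := by
    rw [padicValNat.mul hk two_ne_zero, padicValNat.eq_zero_of_not_dvd (fun h => ?_), padicValNat.self (by norm_num)]
    have := Nat.odd_iff.1 ho
    omega
  rw [h3, padicValNat.mul (by omega) (by omega), h4, h2] at h1
  omega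

/-- number of even entries -/
def evs (ds : List ℕ) : ℕ := (ds.filter fun k => k % 2 = 0).length

theorem val_prod {q : ℕ} (hq : q % 2 = 1) (hq1 : 1 < q) {ds : List ℕ} (h0 : ∀ k ∈ ds, 0 < k) :
    evs ds + padicValNat 2 (ds.map fun k => q ^ k - 1).prod =
      ds.length * padicValNat 2 (q - 1) + padicValNat 2 ds.prod + evs ds * padicValNat 2 (q + 1) := by
  induction ds with
  | nil => simp [evs]
  | cons k ds ih =>
    have ih' := ih fun i hi => h0 i (List.mem_cons_of_mem _ hi)
    have hk := h0 k List.mem_cons_self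
    have hq' : ∀ i, 0 < i → q ^ i - 1 ≠ 0 := fun i hi => by
      have := Nat.one_lt_pow hi.ne' hq1
      omega
    have hp1 : (ds.map fun k => q ^ k - 1).prod ≠ 0 := by
      rw [Ne, List.prod_eq_zero_iff, List.mem_map]
      rintro ⟨i, hi, h⟩
      exact hq' i (h0 i (List.mem_cons_of_mem _ hi)) h
    have hp2 : ds.prod ≠ 0 := by
      rw [Ne, List.prod_eq_zero_iff]
      intro h
      exact absurd (h0 0 (List.mem_cons_of_mem _ h)) (lt_irrefl 0)
    rw [List.map_cons, List.prod_cons, List.prod_cons, List.length_cons, padicValNat.mul (hq' k hk) hp1,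
      padicValNat.mul hk.ne' hp2]
    rcases Nat.even_or_odd k with he | ho
    · have h1 := val_even hq hq1 hk.ne' he
      have h2 : evs (k :: ds) = evs ds + 1 := by
        unfold evs
        rw [List.filter_cons_of_pos (by simpa using Nat.even_iff.1 he), List.length_cons]
      rw [h2]
      have e1 : (ds.length + 1) * padicValNat 2 (q - 1) = ds.length * padicValNat 2 (q - 1) + padicValNat 2 (q - 1) := by
        ring
      have e2 : (evs ds + 1) * padicValNat 2 (q + 1) = evs ds * padicValNat 2 (q + 1) + padicValNat 2 (q + 1) := by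
        ring
      rw [e1, e2]
      omega
    · have h1 := val_odd hq hq1 ho
      have h2 : evs (k :: ds) = evs ds := by
        unfold evs
        rw [List.filter_cons_of_neg (by simpa using Nat.odd_iff.1 ho)]
      have h3 : padicValNat 2 k = 0 := padicValNat.eq_zero_of_not_dvd (by
        have := Nat.odd_iff.1 ho
        omega)
      rw [h2, h1, h3]
      have e1 : (ds.length + 1) * padicValNat 2 (q - 1) = ds.length * padicValNat 2 (q - 1) + padicValNat 2 (q - 1) := by
        ring
      rw [e1]
      omega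

end Cfsg.Agent.H790.Frm
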