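import Cfsg.Agent.H790.Frm.FCert
import Cfsg.Agent.H790.Frm.Num
import Cfsg.Agent.Nodes.RGDChev
import Cfsg.Agent.Nodes.RGDFold
import Cfsg.Agent.H172.SIComm
import Cfsg.Agent.H172.SINN

/-!
# Frames in the Chevalley groups (helper790)

`OKc D l c` : the kernel checks for the datum `D` and the certificate `c`; `meet2` : `MeetIn 2 (D.group K)`, `|K|` odd.
-/

set_option autoImplicit false
set_option linter.unusedSectionVars false

namespace Cfsg.Agent.H790.Frm.Chev

open CoxeterSystem Cfsg.Agent.ChevalleyStructure.CoxeterGeom Cfsg.Agent.Tits.Roots Cfsg.Agent.Tits.Core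
  Cfsg.Agent.Nodes.Reps Cfsg.Agent.Nodes.BNOf Cfsg.Agent.Nodes.Bruhat Cfsg.Agent.Nodes.RGDChev
  Cfsg.Agent.Nodes.FreeTorus Cfsg.Agent.Nodes.Perp Cfsg.Agent.Nodes.RGDFold
open Cfsg.Lie Cfsg.Agent.ChevalleyStructure Cfsg.Agent.ChevalleyStructure.Elts
  Cfsg.Agent.ChevalleyStructure.RootVec Cfsg.Agent.ChevalleyStructure.RootCombGood

universe u

/-- the torus acts faithfully on the simple root elements -/
theorem torus_eq_one {D : ChevalleyDatum} {F : Type u} [Field F] (hD : InList D) {t : GL D.Idx F}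
    (ht : t ∈ D.diagonalSubgroup F)
    (hc : ∀ i < D.rank, ∃ u : F, u ≠ 0 ∧ t * xG hD (D.simple i) u * t⁻¹ = xG hD (D.simple i) u) : t = 1 := by
  have G := RootComb.good_of_mem hD
  obtain ⟨c, hc0, hcm, hcx⟩ := H190.torus_form hD ht
  have h1 : ∀ i < D.rank, ∏ k ∈ Finset.range D.rank, c k ^ (D.cartan k (D.simple i)) = 1 := by
    intro i hi
    obtain ⟨u, hu, hcu⟩ := hc i hi
    rw [hcx _ (G.simple_lt hi)] at hcu
    have h2 := xG_injective hD (G.simple_lt hi) hcu
    exact mul_right_cancel₀ hu (by rw [h2, one_mul])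
  have h2 : ∀ r < D.nroots, ∏ k ∈ Finset.range D.rank, c k ^ (D.cartan k r) = 1 := by
    refine RootWord.root_induction G h1 fun i hi r hr hP => ?_
    have h3 : ∏ k ∈ Finset.range D.rank, c k ^ (D.cartan k (D.reflectRoot i r)) =
        (∏ k ∈ Finset.range D.rank, c k ^ (D.cartan k r)) *
          ((∏ k ∈ Finset.range D.rank, c k ^ (D.cartan k (D.simple i))) ^ (D.cartan i r))⁻¹ := by
      rw [← Finset.prod_zpow, ← Finset.prod_inv_distrib, ← Finset.prod_mul_distrib]
      refine Finset.prod_congr rfl fun k hk => ?_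
      have hk' := Finset.mem_range.1 hk
      rw [G.cartan_reflect hi hr hk', zpow_sub₀ (hc0 k hk'), div_eq_mul_inv, mul_comm (D.cartan i r), zpow_mul]
    rw [h3, hP, h1 i hi]
    simp
  refine H190.torus_ext hD ht (Subgroup.one_mem _) fun r => ?_
  have h3 : H190.ent t r = 1 := by
    rw [H190.ent_of_dmat hcm]
    exact h2 r r.2
  rw [h3]
  unfold H190.ent
  rw [Units.val_one, Matrix.one_apply_eq]

/-- the root groups of `r`, `s` commute -/
def Nil (D : ChevalleyDatum) (r s : ℕ) : Prop := s ≠ r ∧ s ≠ D.neg r ∧ D.commTerms r s = []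

instance decNil (D : ChevalleyDatum) (r s : ℕ) : Decidable (Nil D r s) := inferInstanceAs (Decidable (_ ∧ _ ∧ _))

/-- the kernel checks -/
structure OKc (D : ChevalleyDatum) (l : ℕ) (c : FC) : Prop where
  two : D.nroots = 2 * c.m
  hl : c.l = l
  odd : c.N % 2 = 1
  pos : 0 < c.N
  chk : c.chk = true
  chkR : c.chkR = true
  lt : ∀ k < c.N, ∀ a < c.b, c.fr k a < c.m
  wlt : ∀ i < l, ∀ r < c.m, c.w i r < c.m
  refl : ∀ i < l, ∀ r < c.m, D.reflectRoot i (r + c.m) = c.w i r + c.m ∨ D.reflectRoot i (r + c.m) =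
    D.neg (c.w i r + c.m)
  nonneg : ∀ a < c.b, ∀ i < l, 0 ≤ rt D (c.fr 0 a + c.m) i
  ns : ∀ a < c.b, ∀ i < l, c.fr 0 a + c.m ≠ D.simple i
  comm : ∀ a < c.b, ∀ b < c.b, a ≠ b → ∀ r ∈ [c.fr 0 a + c.m, D.neg (c.fr 0 a + c.m)],
    ∀ s ∈ [c.fr 0 b + c.m, D.neg (c.fr 0 b + c.m)], Nil D r s

section

variable {D : ChevalleyDatum} {l : ℕ} {M : CoxeterMatrix (Fin l)} (hp : IsType D l M) {c : FC} (hc : OKc D l c)

include hp hc

/-- the roots of the frame -/
theorem frlt {k : ℕ} (hk : k < c.N) (a : Fin c.b) : c.fr k a + c.m < D.nroots := by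
  have := hc.lt k hk a a.2
  rw [hc.two]; omega

/-- the index of the stabiliser is odd -/
theorem index_odd {W : Type*} [Group W] (cs : CoxeterSystem M W) :
    ¬ 2 ∣ (VS cs hp.isCartan (SS fun a : Fin c.b => vec D l (c.fr 0 a + c.m))).index := by
  refine FC.odd cs hp.isCartan hc.hl hc.chk hc.chkR hc.odd (fun r => vec D l (r + c.m)) ?_ hc.lt
  intro i r hr
  have h1 : r + c.m < D.nroots := by rw [hc.two]; omega
  have h2 : c.w i r + c.m < D.nroots := by
    have := hc.wlt i i.2 r hr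
    rw [hc.two]; omega
  change rep cs hp.isCartan (cs.simple i) (vec D l (r + c.m)) = vec D l (c.w i r + c.m) ∨
    rep cs hp.isCartan (cs.simple i) (vec D l (r + c.m)) = -vec D l (c.w i r + c.m)
  rw [rep_vec hp cs i h1]
  rcases hc.refl i i.2 r hr with h3 | h3
  · left; rw [h3]
  · right; rw [h3, vec_neg hp h2]

variable {K : Type u} [Field K]

omit hc in
theorem comm_rootSubgroup {r s : ℕ} (hr : r < D.nroots) (hs : s < D.nroots)
    (h : Nil D r s) {x y : GL D.Idx K} (hx : x ∈ D.rootSubgroup K r)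
    (hy : y ∈ D.rootSubgroup K s) : Commute x y := by
  obtain ⟨t, rfl⟩ := (mem_rootSubgroup_iff hp.inList r x).1 hx
  obtain ⟨u, rfl⟩ := (mem_rootSubgroup_iff hp.inList s y).1 hy
  exact commute_of_nil hp hr hs h.1 h.2.1 h.2.2 t u

omit hc in
theorem comm_LL {r s : ℕ} (hr : r < D.nroots) (hs : s < D.nroots)
    (h : ∀ r' ∈ [r, D.neg r], ∀ s' ∈ [s, D.neg s], Nil D r' s')
    {x y : ↥(D.group K)} (hx : x ∈ LL (fun x => (XV D l K x).subgroupOf (D.group K)) (vec D l r))
    (hy : y ∈ LL (fun x => (XV D l K x).subgroupOf (D.group K)) (vec D l s)) : Commute x y := by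
  have key : ∀ r' ∈ [r, D.neg r], ∀ s' ∈ [s, D.neg s],
      ∀ a ∈ (XV D l K (vec D l r')).subgroupOf (D.group K), ∀ b ∈ (XV D l K (vec D l s')).subgroupOf (D.group K),
      a * b = b * a := by
    intro r' hr' s' hs' a ha b hb
    have h1 : r' < D.nroots := by
      rcases List.mem_cons.1 hr' with rfl | h2
      · exact hr
      · rw [List.mem_singleton.1 h2]; exact NPerm.neg_lt hp.inList hr
    have h2 : s' < D.nroots := by
      rcases List.mem_cons.1 hs' with rfl | h2
      · exact hs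
      · rw [List.mem_singleton.1 h2]; exact NPerm.neg_lt hp.inList hs
    rw [Subgroup.mem_subgroupOf, XV_vec hp K h1] at ha
    rw [Subgroup.mem_subgroupOf, XV_vec hp K h2] at hb
    exact Subtype.ext (comm_rootSubgroup hp h1 h2 (h r' hr' s' hs') ha hb).eq
  have hL : LL (fun x => (XV D l K x).subgroupOf (D.group K)) (vec D l s) ≤
      Subgroup.centralizer ((LL (fun x => (XV D l K x).subgroupOf (D.group K)) (vec D l r) : Subgroup _) : Set _) := by
    rw [Subgroup.le_centralizer_iff]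
    unfold LL
    rw [← vec_neg hp hr, ← vec_neg hp hs]
    refine sup_le ?_ ?_
    · rw [Subgroup.le_centralizer_iff]
      refine sup_le ?_ ?_
      · intro b hb
        exact Subgroup.mem_centralizer_iff.2 fun a ha => key r (by simp) s (by simp) a ha b hb
      · intro b hb
        exact Subgroup.mem_centralizer_iff.2 fun a ha => key r (by simp) _ (by simp) a ha b hb
    · rw [Subgroup.le_centralizer_iff]
      refine sup_le ?_ ?_
      · intro b hb
        exact Subgroup.mem_centralizer_iff.2 fun a ha => key _ (by simp) s (by simp) a ha b hb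
      · intro b hb
        exact Subgroup.mem_centralizer_iff.2 fun a ha => key _ (by simp) _ (by simp) a ha b hb
  exact (Subgroup.mem_centralizer_iff.1 (hL hy) x hx)

theorem frame [Finite K] {W : Type*} [Group W] (cs : CoxeterSystem M W) (p : ℕ) [Fact p.Prime] [CharP K p] :
    Frame (rgd (K := K) hp cs p) (fun a : Fin c.b => vec D l (c.fr 0 a + c.m)) where
  root a := isRoot_vec hp cs (frlt hp hc hc.pos a)
  pos a i := by
    rw [vec_apply]
    exact hc.nonneg a a.2 i i.2
  comm a b hab x y hx hy :=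
    comm_LL hp (frlt hp hc hc.pos a) (frlt hp hc hc.pos b)
      (hc.comm a a.2 b b.2 fun h => hab (Fin.ext h)) hx hy

omit hc in
theorem card_X [Fintype K] {r : ℕ} (hr : r < D.nroots) :
    Nat.card ↥((XV D l K (vec D l r)).subgroupOf (D.group K)) = Fintype.card K := by
  rw [XV_vec hp K hr, ← Nat.card_eq_fintype_card]
  symm
  refine Nat.card_congr (Equiv.ofBijective
    (fun a : K => (⟨⟨xG hp.inList r a, xG_mem_group hp.inList r a⟩, xG_mem_rootSubgroup hp.inList r a⟩ :
      ↥((D.rootSubgroup K r).subgroupOf (D.group K)))) ⟨?_, ?_⟩)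
  · intro a b h
    have h1 : xG hp.inList r a = xG hp.inList r b := congrArg (fun z => (z.1 : GL D.Idx K)) h
    exact xG_injective hp.inList hr h1
  · rintro ⟨⟨g, hg'⟩, hg⟩
    obtain ⟨t, rfl⟩ := (mem_rootSubgroup_iff hp.inList r g).1 hg
    exact ⟨t, rfl⟩

end

/-- **`MeetIn 2`** for the Chevalley groups over fields of odd order. -/
theorem meet2 {D : ChevalleyDatum} {l : ℕ} {M : CoxeterMatrix (Fin l)} (hp : IsType D l M) {c : FC}
    (hc : OKc D l c) {d : ℕ → ℕ} {N : ℕ} {ds : List ℕ} (hD : H172.SI.Deg D d N ds) (hb : c.b = evs ds)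
    (h0 : ∀ k ∈ ds, 0 < k) (hW : Nat.card M.Group = ds.prod) (K : Type) [Field K] [Fintype K]
    (hK : Odd (Fintype.card K)) : H68.MeetB.MeetIn 2 ↥(D.group K) := by
  obtain ⟨p, hpK⟩ := CharP.exists K
  have hpf : Fact p.Prime := ⟨CharP.char_is_prime K p⟩
  obtain ⟨n, -, hn⟩ := FiniteField.card K p
  have hp2 : p ≠ 2 := by
    rintro rfl
    rw [hn] at hK
    exact absurd hK (Nat.not_odd_iff_even.2 (Nat.even_pow.2 ⟨even_two, n.pos.ne'⟩))
  let cs : CoxeterSystem M M.Group := M.toCoxeterSystem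
  have hfW : Finite M.Group := finite_W hp cs
  let _ : Fintype M.Group := Fintype.ofFinite _
  set q := Fintype.card K with hq
  have hq1 : 1 < q := Fintype.one_lt_card
  have hq2 : q % 2 = 1 := Nat.odd_iff.1 hK
  have hsi : ∀ i : Fin l, D.simple i < D.nroots := fun i => NPerm.simple_lt hp.inList (lt_rank hp i)
  refine meetIn_of_frame (frame hp hc cs p (K := K)) hp2 ?_ (index_odd hp hc cs) ?_
    (x := fun i => ⟨xG hp.inList (D.simple i) 1, xG_mem_group hp.inList _ _⟩) ?_ ?_ ?_
  · intro a i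
    rw [← vec_simple hp i]
    intro h
    exact hc.ns a a.2 i i.2 (vec_inj hp (frlt hp hc hc.pos a) (hsi i) h)
  · -- the orders
    have e1 : ∀ a : Fin c.b, Nat.card ↥((XV D l K (vec D l (c.fr 0 a + c.m))).subgroupOf (D.group K)) = q :=
      fun a => card_X hp (frlt hp hc hc.pos a)
    have e2 : Nat.card ↥((D.diagonalSubgroup K).subgroupOf (D.group K)) = Nat.card ↥(D.diagonalSubgroup K) := by
      refine Nat.card_congr (Subgroup.subgroupOfEquivOfLe ?_).toEquiv
      exact Elts.diagonal_le_group hp.inList K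
    have h1 := hD.card (F := K)
    have h2 := hD.tor (F := K)
    have h3 := val_prod hq2 hq1 h0
    rw [← hq] at h1 h2
    have hne : (ds.map fun k => q ^ k - 1).prod ≠ 0 := by
      rw [Ne, List.prod_eq_zero_iff, List.mem_map]
      rintro ⟨i, hi, h⟩
      have := Nat.one_lt_pow (h0 i hi).ne' hq1
      omega
    have h4 := congrArg (padicValNat 2) h1
    have h5 := congrArg (padicValNat 2) h2
    have hqN : q ^ N ≠ 0 := pow_ne_zero _ (by omega)
    have hvq : padicValNat 2 (q ^ N) = 0 := by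
      rw [padicValNat.pow, padicValNat.eq_zero_of_not_dvd (by omega), mul_zero]
    rw [padicValNat.mul (hD.d0 _) Nat.card_pos.ne', padicValNat.mul hqN hne, hvq, zero_add] at h4
    rw [padicValNat.mul (hD.d0 _) Nat.card_pos.ne', padicValNat.pow] at h5
    rw [e2, Fintype.card_fin, hW]
    simp only [e1]
    rw [Finset.sum_const, Finset.card_univ, Fintype.card_fin, smul_eq_mul, hb]
    omega
  · intro i
    rw [Subgroup.mem_subgroupOf, XV_sr hp i]
    exact xG_mem_rootSubgroup hp.inList _ _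
  · intro i h
    have h1 : xG hp.inList (D.simple i) (1 : K) = 1 := congrArg Subtype.val h
    exact one_ne_zero ((xG_eq_one_iff hp.inList (hsi i) _).1 h1)
  · rintro ⟨t, htG⟩ ht hcomm
    refine Subtype.ext ?_
    refine torus_eq_one hp.inList ht fun i hi => ⟨1, one_ne_zero, ?_⟩
    have hi' : i < l := by rw [← hp.rank_eq]; exact hi
    have h1 := congrArg Subtype.val (hcomm ⟨i, hi'⟩)
    rw [mul_inv_eq_iff_eq_mul]
    exact h1

end Cfsg.Agent.H790.Frm.Chev
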