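import Cfsg.Agent.H790.Frm.FCert

/-! The orbit of a frame of type D4 (generated, helper790). -/

set_option autoImplicit false
set_option maxRecDepth 100000

namespace Cfsg.Agent.H790.Frm.DataD4

open Cfsg.Agent.ChevalleyStructure.FastBase

/-- the certificate -/
def fc : FC where
  l := 4
  m := 12
  b := 4
  N := 3
  W := 0xb090a0708060405020301000b08070a09060302050401000a0b090806070501000204030b05040302060a0908070100
  FR := 0xb060100090805020a070403
  NX := 0x200020000000200000000000100000001000100020001
  MK := 0x843324498

theorem chk : fc.chk = true := by decide +kernel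

theorem chkR : fc.chkR = true := by decide +kernel

theorem lt' : (allLt fc.N fun k => allLt fc.b fun a => Nat.ble (Nat.succ (fc.fr k a)) fc.m) = true := by
  decide +kernel

theorem lt : ∀ k < fc.N, ∀ a < fc.b, fc.fr k a < fc.m := fun k hk a ha =>
  Nat.le_of_ble_eq_true (allLt_iff.1 (allLt_iff.1 lt' k hk) a ha)

end Cfsg.Agent.H790.Frm.DataD4
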