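import Cfsg.Agent.H790.Frm.FCert

/-! The orbit of a frame of type G2 (generated, helper790). -/

set_option autoImplicit false
set_option maxRecDepth 100000

namespace Cfsg.Agent.H790.Frm.DataG2

open Cfsg.Agent.ChevalleyStructure.FastBase

/-- the certificate -/
def fc : FC where
  l := 2
  m := 6
  b := 2
  N := 3
  W := 0x40503010200050002030104
  FR := 0x50103000402
  NX := 0x20001000000020001
  MK := 0x22254

theorem chk : fc.chk = true := by decide +kernel

theorem chkR : fc.chkR = true := by decide +kernel

theorem lt' : (allLt fc.N fun k => allLt fc.b fun a => Nat.ble (Nat.succ (fc.fr k a)) fc.m) = true := by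
  decide +kernel

theorem lt : ∀ k < fc.N, ∀ a < fc.b, fc.fr k a < fc.m := fun k hk a ha =>
  Nat.le_of_ble_eq_true (allLt_iff.1 (allLt_iff.1 lt' k hk) a ha)

end Cfsg.Agent.H790.Frm.DataG2
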