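import Cfsg.Agent.H790.Frm.Chev
import Cfsg.Agent.H790.Frm.DataG2
import Cfsg.Agent.H790.Frm.DataD4
import Cfsg.Agent.H790.Frm.DataF4
import Cfsg.Agent.H790.Frm.DataE6
import Cfsg.Agent.H790.Frm.DataE7
import Cfsg.Agent.H790.Frm.DataE8
import Cfsg.Agent.S1092
import Cfsg.Agent.S1093

/-!
# `MeetIn 2` for the Chevalley groups `G₂, D₄, F₄, E₆, E₇, E₈` over fields of odd order (helper790)
-/

set_option autoImplicit false
set_option linter.unusedSectionVars false
set_option maxRecDepth 100000

namespace Cfsg.Agent.H790.Frm.Chev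

open Cfsg.Lie Cfsg.Agent.ChevalleyStructure Cfsg.Agent.Nodes.RGDChev

/-- the check of `OKc.lt` -/
theorem ok_G2 : OKc chevG2 2 DataG2.fc where
  two := by decide +kernel
  hl := rfl
  odd := by decide +kernel
  pos := by decide +kernel
  chk := DataG2.chk
  chkR := DataG2.chkR
  lt := DataG2.lt
  wlt := by decide +kernel
  refl := by decide +kernel
  nonneg := by decide +kernel
  ns := by decide +kernel
  comm := by decide +kernel

theorem ok_D4 : OKc chevD4 4 DataD4.fc where
  two := by decide +kernel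
  hl := rfl
  odd := by decide +kernel
  pos := by decide +kernel
  chk := DataD4.chk
  chkR := DataD4.chkR
  lt := DataD4.lt
  wlt := by decide +kernel
  refl := by decide +kernel
  nonneg := by decide +kernel
  ns := by decide +kernel
  comm := by decide +kernel

theorem ok_F4 : OKc chevF4 4 DataF4.fc where
  two := by decide +kernel
  hl := rfl
  odd := by decide +kernel
  pos := by decide +kernel
  chk := DataF4.chk
  chkR := DataF4.chkR
  lt := DataF4.lt
  wlt := by decide +kernel
  refl := by decide +kernel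
  nonneg := by decide +kernel
  ns := by decide +kernel
  comm := by decide +kernel

theorem ok_E6 : OKc chevE6 6 DataE6.fc where
  two := by decide +kernel
  hl := rfl
  odd := by decide +kernel
  pos := by decide +kernel
  chk := DataE6.chk
  chkR := DataE6.chkR
  lt := DataE6.lt
  wlt := by decide +kernel
  refl := by decide +kernel
  nonneg := by decide +kernel
  ns := by decide +kernel
  comm := by decide +kernel

theorem ok_E7 : OKc chevE7 7 DataE7.fc where
  two := by decide +kernel
  hl := rfl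
  odd := by decide +kernel
  pos := by decide +kernel
  chk := DataE7.chk
  chkR := DataE7.chkR
  lt := DataE7.lt
  wlt := by decide +kernel
  refl := by decide +kernel
  nonneg := by decide +kernel
  ns := by decide +kernel
  comm := by decide +kernel

/-! the check of `OKc.refl` for `E₈`, two simple reflections at a time (memory) -/

theorem refl_E8_0 : ∀ i < 2, ∀ r < DataE8.fc.m,
    chevE8.reflectRoot (i + 0) (r + DataE8.fc.m) = DataE8.fc.w (i + 0) r + DataE8.fc.m ∨
      chevE8.reflectRoot (i + 0) (r + DataE8.fc.m) =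
        chevE8.neg (DataE8.fc.w (i + 0) r + DataE8.fc.m) := by
  decide +kernel

theorem refl_E8_2 : ∀ i < 2, ∀ r < DataE8.fc.m,
    chevE8.reflectRoot (i + 2) (r + DataE8.fc.m) = DataE8.fc.w (i + 2) r + DataE8.fc.m ∨
      chevE8.reflectRoot (i + 2) (r + DataE8.fc.m) =
        chevE8.neg (DataE8.fc.w (i + 2) r + DataE8.fc.m) := by
  decide +kernel

theorem refl_E8_4 : ∀ i < 2, ∀ r < DataE8.fc.m,
    chevE8.reflectRoot (i + 4) (r + DataE8.fc.m) = DataE8.fc.w (i + 4) r + DataE8.fc.m ∨
      chevE8.reflectRoot (i + 4) (r + DataE8.fc.m) =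
        chevE8.neg (DataE8.fc.w (i + 4) r + DataE8.fc.m) := by
  decide +kernel

theorem refl_E8_6 : ∀ i < 2, ∀ r < DataE8.fc.m,
    chevE8.reflectRoot (i + 6) (r + DataE8.fc.m) = DataE8.fc.w (i + 6) r + DataE8.fc.m ∨
      chevE8.reflectRoot (i + 6) (r + DataE8.fc.m) =
        chevE8.neg (DataE8.fc.w (i + 6) r + DataE8.fc.m) := by
  decide +kernel

theorem ok_E8 : OKc chevE8 8 DataE8.fc where
  two := by decide +kernel
  hl := rfl
  odd := by decide +kernel
  pos := by decide +kernel
  chk := DataE8.chk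
  chkR := DataE8.chkR
  lt := DataE8.lt
  wlt := by decide +kernel
  refl := by
    intro i hi
    obtain h | ⟨j, hj, rfl⟩ | ⟨j, hj, rfl⟩ | ⟨j, hj, rfl⟩ :
        i < 2 ∨ (∃ j, j < 2 ∧ i = j + 2) ∨ (∃ j, j < 2 ∧ i = j + 4) ∨ ∃ j, j < 2 ∧ i = j + 6 := by
      rcases Nat.lt_or_ge i 2 with h | h
      · exact Or.inl h
      rcases Nat.lt_or_ge i 4 with h' | h'
      · exact Or.inr (Or.inl ⟨i - 2, by omega, by omega⟩)
      rcases Nat.lt_or_ge i 6 with h'' | h''
      · exact Or.inr (Or.inr (Or.inl ⟨i - 4, by omega, by omega⟩))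
      · exact Or.inr (Or.inr (Or.inr ⟨i - 6, by omega, by omega⟩))
    · exact refl_E8_0 i h
    · exact refl_E8_2 j hj
    · exact refl_E8_4 j hj
    · exact refl_E8_6 j hj
  nonneg := by decide +kernel
  ns := by decide +kernel
  comm := by decide +kernel

variable (K : Type) [Field K] [Fintype K] (hK : Odd (Fintype.card K))

include hK

theorem meet2_G2 : H68.MeetB.MeetIn 2 ↥(chevG2.group K) :=
  meet2 (l := 2) (M := CoxeterMatrix.G₂) (by simp [IsType, typeList]) ok_G2 H172.SI.deg_G2 (by decide +kernel)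
    (by decide) (S1092.result (⟨2, CoxeterMatrix.G₂⟩, 12) (by simp)) K hK

theorem meet2_D4 : H68.MeetB.MeetIn 2 ↥(chevD4.group K) :=
  meet2 (l := 4) (M := coxeterD4) (by simp [IsType, typeList]) ok_D4 H172.SI.deg_D4 (by decide +kernel)
    (by decide) (S1092.result (⟨4, coxeterD4⟩, 192) (by simp)) K hK

theorem meet2_F4 : H68.MeetB.MeetIn 2 ↥(chevF4.group K) :=
  meet2 (l := 4) (M := CoxeterMatrix.F₄) (by simp [IsType, typeList]) ok_F4 H172.SI.deg_F4 (by decide +kernel)
    (by decide) (S1092.result (⟨4, CoxeterMatrix.F₄⟩, 1152) (by simp)) K hK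

theorem meet2_E6 : H68.MeetB.MeetIn 2 ↥(chevE6.group K) :=
  meet2 (l := 6) (M := CoxeterMatrix.E₆) (by simp [IsType, typeList]) ok_E6 H172.SI.deg_E6 (by decide +kernel)
    (by decide) (S1093.result (⟨6, CoxeterMatrix.E₆⟩, 51840) (by simp)) K hK

theorem meet2_E7 : H68.MeetB.MeetIn 2 ↥(chevE7.group K) :=
  meet2 (l := 7) (M := CoxeterMatrix.E₇) (by simp [IsType, typeList]) ok_E7 H172.SI.deg_E7 (by decide +kernel)
    (by decide) (S1093.result (⟨7, CoxeterMatrix.E₇⟩, 2903040) (by simp)) K hK

theorem meet2_E8 : H68.MeetB.MeetIn 2 ↥(chevE8.group K) :=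
  meet2 (l := 8) (M := CoxeterMatrix.E₈) (by simp [IsType, typeList]) ok_E8 H172.SI.deg_E8 (by decide +kernel)
    (by decide) (S1093.result (⟨8, CoxeterMatrix.E₈⟩, 696729600) (by simp)) K hK

end Cfsg.Agent.H790.Frm.Chev
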