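import Cfsg.Agent.H790.Frm.Frame

/-!
# `MeetIn 2` from a frame (helper790)

`SS β` : the roots `± β j`; `VS cs h S` : the stabiliser of `S` in the Weyl group; `Frame.orth` : the roots of a frame are
orthogonal; `meetIn_of_frame` : `MeetIn 2 Y` from a frame without simple roots, with `[W : VS]` odd, if the `2`-part
of `|Y|` is that of `|T| |W| ∏ (|X_j| + 1) / 2`.
-/

set_option autoImplicit false
set_option linter.unusedSectionVars false

namespace Cfsg.Agent.H790.Frm

open CoxeterSystem Cfsg.Agent.ChevalleyStructure.CoxeterGeom Cfsg.Agent.Tits.Roots Cfsg.Agent.Tits.Core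
  Cfsg.Agent.Tits.Exchange Cfsg.Agent.Nodes.Reps Cfsg.Agent.Nodes.BNOf Cfsg.Agent.Nodes.StabComb
  Cfsg.Agent.Nodes.Bruhat Cfsg.Agent.Nodes.OppDec Cfsg.Agent.Nodes.NormalForm
  Cfsg.Agent.Nodes.FreeTorus Cfsg.Agent.Nodes.Coroot Cfsg.Agent.Nodes.Perp

section Act

variable {I W : Type*} [DecidableEq I] [Fintype I] [Group W] {M : CoxeterMatrix I}
  (cs : CoxeterSystem M W) {A : I → I → ℤ} (h : IsCartan M A)

/-- the action of the Weyl group on the sets of vectors -/
@[reducible] def actS : MulAction W (Set (I → ℤ)) where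
  smul w S := rep cs h w '' S
  one_smul S := by
    change rep cs h 1 '' S = S
    rw [map_one]; ext x; simp
  mul_smul a b S := by
    change rep cs h (a * b) '' S = rep cs h a '' (rep cs h b '' S)
    rw [Set.image_image]
    exact Set.image_congr fun x _ => rep_mul_apply cs h a b x

/-- the stabiliser of a set of vectors -/
def VS (S : Set (I → ℤ)) : Subgroup W := @MulAction.stabilizer W _ _ (actS cs h) S

theorem mem_VS {S : Set (I → ℤ)} {w : W} : w ∈ VS cs h S ↔ rep cs h w '' S = S := Iff.rfl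

end Act

/-- the roots `± β j` -/
def SS {I J : Type*} (β : J → I → ℤ) : Set (I → ℤ) := {x | ∃ j, x = β j ∨ x = -β j}

theorem SS_finite {I J : Type*} [Finite J] (β : J → I → ℤ) : (SS β).Finite := by
  have : SS β = Set.range β ∪ Set.range (fun j => -β j) := by
    ext x
    constructor
    · rintro ⟨j, h | h⟩
      · exact Or.inl ⟨j, h.symm⟩
      · exact Or.inr ⟨j, h.symm⟩
    · rintro (⟨j, h⟩ | ⟨j, h⟩)
      · exact ⟨j, Or.inl h.symm⟩
      · exact ⟨j, Or.inr h.symm⟩
  rw [this]
  exact (Set.finite_range _).union (Set.finite_range _)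

variable {I W Y : Type*} [Fintype I] [DecidableEq I] [Group W] [Group Y] [Fintype W] {M : CoxeterMatrix I}
  {cs : CoxeterSystem M W} {A : I → I → ℤ} {h : IsCartan M A} {p : ℕ} {T : Subgroup Y} {n : I → Y}
  {X : (I → ℤ) → Subgroup Y}

variable {R : RGD cs h p T n X} {J : Type*} [Fintype J] [DecidableEq J] {β : J → I → ℤ} (F : Frame R β)

include F

/-- the roots of a frame are orthogonal -/
theorem Frame.orth {i j : J} (hij : i ≠ j) : cpr cs h (β i) (β j) = 0 := by
  obtain ⟨w, m, hm⟩ := exists_rf R (F.root j)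
  have h1 : rep cs h w (β i) = β i := by
    refine X_injective R ((F.root i).act w) (F.root i) ?_
    rw [← R.conj_rp hm.rp (F.root i)]
    exact cj_of_comm fun b hb => F.comm hij.symm m b hm.mem (X_le_LL _ hb)
  rw [hm.refl] at h1
  have h2 : cpr cs h (β i) (β j) • β j = 0 := by
    have := sub_eq_self.1 h1
    exact this
  rcases smul_eq_zero.1 h2 with h3 | h3
  · exact h3
  · exact absurd h3 (F.root j).ne_zero

theorem Frame.refl_mem {j : J} {w : W} (hw : ∀ z, rep cs h w z = z - cpr cs h z (β j) • β j) :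
    w ∈ VS cs h (SS β) := by
  rw [mem_VS]
  have hsub : rep cs h w '' SS β ⊆ SS β := by
    rintro _ ⟨x, ⟨i, hx⟩, rfl⟩
    rcases eq_or_ne i j with rfl | hij
    · have h1 := neg_of_refl F hw
      rcases hx with rfl | rfl
      · exact ⟨i, Or.inr h1⟩
      · exact ⟨i, Or.inl (by rw [map_neg, h1, neg_neg])⟩
    · have h1 : rep cs h w (β i) = β i := by rw [hw, F.orth hij, zero_smul, sub_zero]
      rcases hx with rfl | rfl
      · exact ⟨i, Or.inl h1⟩
      · exact ⟨i, Or.inr (by rw [map_neg, h1])⟩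
  have hinj : Function.Injective (rep cs h w) := by
    intro x y hxy
    have := congrArg (rep cs h w⁻¹) hxy
    rwa [rep_inv_apply, rep_inv_apply] at this
  refine Set.eq_of_subset_of_ncard_le hsub ?_ (SS_finite β)
  rw [Set.ncard_image_of_injective _ hinj]

omit F in
theorem VS_frame {w : W} (hw : w ∈ VS cs h (SS β)) (j : J) :
    ∃ i, rep cs h w (β j) = β i ∨ rep cs h w (β j) = -β i := by
  rw [mem_VS] at hw
  have : rep cs h w (β j) ∈ SS β := by
    rw [← hw]
    exact Set.mem_image_of_mem _ ⟨j, Or.inl rfl⟩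
  exact this

/-- **`MeetIn 2` from a frame.** -/
theorem meetIn_of_frame [Finite Y] [Fact p.Prime] (hp : p ≠ 2) (hs : ∀ j i, β j ≠ sr i)
    (hodd : ¬ 2 ∣ (VS cs h (SS β)).index)
    (hv : Fintype.card J + padicValNat 2 (Nat.card Y) ≤ padicValNat 2 (Nat.card T) + padicValNat 2 (Nat.card W) +
      ∑ j, padicValNat 2 (Nat.card (X (β j)) + 1))
    {x : I → Y} (hx : ∀ i, x i ∈ X (sr i)) (hx1 : ∀ i, x i ≠ 1)
    (hT : ∀ t ∈ T, (∀ i, t * x i = x i * t) → t = 1) : H68.MeetB.MeetIn 2 Y := by
  set V := VS cs h (SS β) with hVdef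
  have hV : ∀ w ∈ V, ∀ j, ∃ i, rep cs h w (β j) = β i ∨ rep cs h w (β j) = -β i := fun w hw j => VS_frame hw j
  refine meetIn R (l := 2) (Ne.symm hp) hx hx1 hT (KV F V) (fun g hg => KV_subset F hV hs hg) ?_
  have h1 := index_mul F hV (fun j w hw => F.refl_mem hw)
  have h2 : V.index * Nat.card V = Nat.card W := V.index_mul_card
  have e1 : padicValNat 2 V.index = 0 := padicValNat.eq_zero_of_not_dvd hodd
  have e2 : padicValNat 2 (Nat.card W) = padicValNat 2 (Nat.card V) := by
    rw [← h2, padicValNat.mul Subgroup.index_ne_zero_of_finite Nat.card_pos.ne', e1, zero_add]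
  have e3 := congrArg (padicValNat 2) h1
  have hne : ∀ j ∈ (Finset.univ : Finset J), Nat.card (X (β j)) * (Nat.card (X (β j)) + 1) ≠ 0 := fun j _ =>
    mul_ne_zero Nat.card_pos.ne' (Nat.succ_ne_zero _)
  rw [padicValNat.mul Subgroup.index_ne_zero_of_finite (mul_ne_zero (mul_ne_zero Nat.card_pos.ne' Nat.card_pos.ne')
      (Finset.prod_ne_zero_iff.2 hne)),
    padicValNat.mul (mul_ne_zero Nat.card_pos.ne' Nat.card_pos.ne') (Finset.prod_ne_zero_iff.2 hne),
    padicValNat.mul Nat.card_pos.ne' Nat.card_pos.ne',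
    padicValNat.mul (pow_ne_zero _ two_ne_zero) Nat.card_pos.ne', padicValNat.prime_pow] at e3
  have e4 : padicValNat 2 (∏ j, (Nat.card (X (β j)) * (Nat.card (X (β j)) + 1))) =
      ∑ j, padicValNat 2 (Nat.card (X (β j)) * (Nat.card (X (β j)) + 1)) := by
    clear e3 h1
    induction (Finset.univ : Finset J) using Finset.induction_on with
    | empty => simp
    | insert a s ha ih =>
      rw [Finset.prod_insert ha, Finset.sum_insert ha, padicValNat.mul
        (mul_ne_zero Nat.card_pos.ne' (Nat.succ_ne_zero _))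
        (Finset.prod_ne_zero_iff.2 fun j _ => mul_ne_zero Nat.card_pos.ne' (Nat.succ_ne_zero _)), ih]
  have e5 : ∑ j, padicValNat 2 (Nat.card (X (β j)) + 1) ≤
      ∑ j, padicValNat 2 (Nat.card (X (β j)) * (Nat.card (X (β j)) + 1)) := by
    refine Finset.sum_le_sum fun j _ => ?_
    rw [padicValNat.mul Nat.card_pos.ne' (Nat.succ_ne_zero _)]
    exact Nat.le_add_left _ _
  intro hd
  have h0 : padicValNat 2 (KV F V).index ≠ 0 := by
    intro h3
    rcases padicValNat.eq_zero_iff.1 h3 with h4 | h4 | h4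
    · omega
    · exact Subgroup.index_ne_zero_of_finite h4
    · exact h4 hd
  omega

end Cfsg.Agent.H790.Frm
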