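import Cfsg.Agent.H790.Frm.FCert

/-! The orbit of a frame of the relative root system of type TE6 (generated, helper790). -/

set_option autoImplicit false
set_option maxRecDepth 100000

namespace Cfsg.Agent.H790.Frm.DataTE6

open Cfsg.Agent.ChevalleyStructure.FastBase Cfsg.Agent.ChevalleyStructure.FastRefl

/-- the certificate -/
def fc : FC where
  l := 4
  m := 24
  b := 4
  N := 3
  W := 0x17161513141011120d0e0f0b0c0a0906070804050301020017161214111513100f0c0a0e0b0d0908050307040600010217151614130f0e0d1211100c0b090a0807060201030504001617151413121110080706050403090f0e0d0c0b0a020100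
  FR := 0x1512100917080603160f0d0a
  NX := 0x200020000000200010001000100000000000000020001
  MK := 0x25020080014840a400

/-- roots over the relative roots -/
def rp (r : ℕ) : ℕ := byte 0x47464542374136353f343331302f2e3c2d2c292827262524 r

theorem chk : fc.chk = true := by decide +kernel

theorem chkR : fc.chkR = true := by decide +kernel

theorem lt' : (allLt fc.N fun k => allLt fc.b fun a => Nat.ble (Nat.succ (fc.fr k a)) fc.m) = true := by
  decide +kernel

theorem lt : ∀ k < fc.N, ∀ a < fc.b, fc.fr k a < fc.m := fun k hk a ha =>
  Nat.le_of_ble_eq_true (allLt_iff.1 (allLt_iff.1 lt' k hk) a ha)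

end Cfsg.Agent.H790.Frm.DataTE6
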