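import Cfsg.Agent.H790.Frm.Orb
import Cfsg.Agent.ChevalleyStructure.FastRefl

/-!
# Certificates for the orbit of a frame (helper790)

`FC` : packed list of the `N` frames of `b` roots (numbers of pairs `± v r`, `r < m`), of the action of the simple
reflections on them and of their bit masks. `FC.odd` : the index of the stabiliser of the first frame is odd.
-/

set_option autoImplicit false
set_option linter.unusedSectionVars false

namespace Cfsg.Agent.H790.Frm

open CoxeterSystem Cfsg.Agent.ChevalleyStructure.CoxeterGeom Cfsg.Agent.Tits.Roots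
open Cfsg.Agent.ChevalleyStructure.FastBase Cfsg.Agent.ChevalleyStructure.FastRefl

/-- the certificate -/
structure FC where
  /-- rank -/
  l : ℕ
  /-- number of pairs of roots -/
  m : ℕ
  /-- size of a frame -/
  b : ℕ
  /-- number of frames -/
  N : ℕ
  /-- packed tables of the simple reflections on the pairs of roots, one byte each -/
  W : ℕ
  /-- frames, one byte for a root -/
  FR : ℕ
  /-- images of the frames, two bytes each -/
  NX : ℕ
  /-- masks, `m` bits each -/
  MK : ℕ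

/-- a bit -/
def bitB (x r : ℕ) : Bool := Nat.beq (Nat.land (Nat.shiftRight x r) 1) 1

theorem bitB_eq (x r : ℕ) : bitB x r = x.testBit r := by
  unfold bitB
  have h : Nat.land (Nat.shiftRight x r) 1 = (x >>> r) % 2 := Nat.and_one_is_mod _
  rw [h]
  rw [Nat.testBit]
  rcases Nat.mod_two_eq_zero_or_one (x >>> r) with h1 | h1
  · rw [h1]
    simp [h1]
    rfl
  · rw [h1]
    simp [h1]

namespace FC

variable (c : FC)

/-- the image of the pair `r` -/
def w (i r : ℕ) : ℕ := byte c.W (Nat.add (Nat.mul c.m i) r)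

/-- the `a`-th root of the frame `k` -/
def fr (k a : ℕ) : ℕ := byte c.FR (Nat.add (Nat.mul c.b k) a)

/-- the image of the frame `k` -/
def nx (i k : ℕ) : ℕ := Nat.land (Nat.shiftRight c.NX (Nat.mul 16 (Nat.add (Nat.mul c.l k) i))) 65535

/-- the mask of the frame `k` -/
def msk (k : ℕ) : ℕ := Nat.land (Nat.shiftRight c.MK (Nat.mul c.m k)) (Nat.sub (Nat.shiftLeft 1 c.m) 1)

/-- the computed mask -/
def comp (k : ℕ) : ℕ := Nat.rec 0 (fun a acc => Nat.lor acc (Nat.shiftLeft 1 (c.fr k a))) c.b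

/-- the check of one pair -/
def chk1 (i k k' : ℕ) : Bool :=
  and (Nat.ble (Nat.succ k') c.N) (and (Nat.beq (c.nx i k') k)
    (force (c.msk k') fun x => allLt c.b fun a => bitB x (c.w i (c.fr k a))))

/-- the check -/
def chk : Bool :=
  allLt c.N fun k => and (Nat.beq (c.msk k) (c.comp k)) (allLt c.l fun i => force (c.nx i k) fun k' => c.chk1 i k k')

/-- bounded existence -/
def anyLt (n : ℕ) (p : ℕ → Bool) : Bool := Nat.rec false (fun k ih => or (p k) ih) n

theorem anyLt_iff {n : ℕ} {p : ℕ → Bool} : anyLt n p = true ↔ ∃ k < n, p k = true := by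
  induction n with
  | zero => simp [anyLt]
  | succ n ih =>
    have h : anyLt (n + 1) p = or (p n) (anyLt n p) := rfl
    rw [h, Bool.or_eq_true, ih]
    constructor
    · rintro (h1 | ⟨k, hk, h1⟩)
      · exact ⟨n, Nat.lt_succ_self n, h1⟩
      · exact ⟨k, Nat.lt_succ_of_lt hk, h1⟩
    · rintro ⟨k, hk, h1⟩
      rcases Nat.lt_succ_iff_lt_or_eq.1 hk with h2 | rfl
      · exact Or.inr ⟨k, h2, h1⟩
      · exact Or.inl h1

/-- reachability -/
def chkR : Bool := allLt c.N fun k => or (Nat.beq k 0) (anyLt c.l fun i => Nat.ble (Nat.succ (c.nx i k)) k)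

variable {c}

theorem testBit_comp (k : ℕ) (r : ℕ) : (c.comp k).testBit r = true ↔ ∃ a < c.b, r = c.fr k a := by
  unfold comp
  generalize c.b = b
  induction b with
  | zero => simp
  | succ b ih =>
    have h : (Nat.rec 0 (fun a acc => Nat.lor acc (Nat.shiftLeft 1 (c.fr k a))) (b + 1) : ℕ) =
        (Nat.rec 0 (fun a acc => Nat.lor acc (Nat.shiftLeft 1 (c.fr k a))) b : ℕ) ||| (1 <<< (c.fr k b)) := rfl
    rw [h, Nat.testBit_or, Bool.or_eq_true, ih]
    have h2 : (1 <<< (c.fr k b)).testBit r = true ↔ r = c.fr k b := by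
      rw [Nat.one_shiftLeft, Nat.testBit_two_pow]
      simp [eq_comm]
    rw [h2]
    constructor
    · rintro (⟨a, ha, h1⟩ | h1)
      · exact ⟨a, Nat.lt_succ_of_lt ha, h1⟩
      · exact ⟨b, Nat.lt_succ_self b, h1⟩
    · rintro ⟨a, ha, h1⟩
      rcases Nat.lt_succ_iff_lt_or_eq.1 ha with h3 | rfl
      · exact Or.inl ⟨a, h3, h1⟩
      · exact Or.inr h1

theorem chk_msk (h : c.chk = true) {k : ℕ} (hk : k < c.N) : c.msk k = c.comp k := by
  have h1 := allLt_iff.1 h k hk
  rw [Bool.and_eq_true] at h1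
  exact Nat.eq_of_beq_eq_true h1.1

theorem chk_all (h : c.chk = true) {k i : ℕ} (hk : k < c.N) (hi : i < c.l) : c.nx i k < c.N ∧
    c.nx i (c.nx i k) = k ∧ ∀ a < c.b, ∃ a' < c.b, c.w i (c.fr k a) = c.fr (c.nx i k) a' := by
  have h1 := allLt_iff.1 h k hk
  rw [Bool.and_eq_true] at h1
  have h2 := allLt_iff.1 h1.2 i hi
  rw [force_eq] at h2
  unfold chk1 at h2
  rw [Bool.and_eq_true, Bool.and_eq_true, force_eq] at h2
  have h3 : c.nx i k < c.N := Nat.le_of_ble_eq_true h2.1
  refine ⟨h3, Nat.eq_of_beq_eq_true h2.2.1, fun a ha => ?_⟩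
  have h4 := allLt_iff.1 h2.2.2 a ha
  rw [bitB_eq, chk_msk h h3, testBit_comp] at h4
  exact h4

theorem chkR_all (h : c.chkR = true) {k : ℕ} (hk : k < c.N) (hk0 : k ≠ 0) : ∃ i < c.l, c.nx i k < k := by
  have h1 := allLt_iff.1 h k hk
  rw [Bool.or_eq_true] at h1
  rcases h1 with h2 | h2
  · exact absurd (Nat.eq_of_beq_eq_true h2) hk0
  · obtain ⟨i, hi, h3⟩ := anyLt_iff.1 h2
    exact ⟨i, hi, Nat.le_of_ble_eq_true h3⟩

end FC

variable {l : ℕ} {W : Type*} [Group W] {M : CoxeterMatrix (Fin l)} (cs : CoxeterSystem M W)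
  {A : Fin l → Fin l → ℤ} (h : IsCartan M A)

/-- **The index of the stabiliser of the first frame is odd.** -/
theorem FC.odd {c : FC} (hl : c.l = l) (hchk : c.chk = true) (hchkR : c.chkR = true) (hN : c.N % 2 = 1)
    (v : ℕ → Fin l → ℤ) (hv : ∀ i : Fin l, ∀ r < c.m, rep cs h (cs.simple i) (v r) = v (c.w i r) ∨
      rep cs h (cs.simple i) (v r) = -v (c.w i r)) (hlt : ∀ k < c.N, ∀ a < c.b, c.fr k a < c.m) :
    ¬ 2 ∣ (VS cs h (SS fun a : Fin c.b => v (c.fr 0 a))).index := by
  intro h2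
  have h1 := VS_index_dvd cs h (N := c.N) (by omega) (fun k => SS fun a : Fin c.b => v (c.fr k a))
    (fun i k => c.nx i k) (fun i k hk => (FC.chk_all hchk hk (by rw [hl]; exact i.2)).1)
    (fun i k hk => (FC.chk_all hchk hk (by rw [hl]; exact i.2)).2.1) ?_ ?_
  · have := h2.trans h1
    omega
  · rintro i k hk x ⟨a, hx⟩
    obtain ⟨a', ha', e⟩ := (FC.chk_all hchk hk (i := i) (by rw [hl]; exact i.2)).2.2 a a.2
    have h3 := hv i (c.fr k a) (hlt k hk a a.2)
    rw [e] at h3
    refine ⟨⟨a', ha'⟩, ?_⟩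
    rcases hx with rfl | rfl
    · exact h3
    · rw [map_neg, neg_eq_iff_eq_neg, neg_inj]
      exact h3.symm
  · intro k hk hk0
    obtain ⟨i, hi, h3⟩ := FC.chkR_all hchkR hk hk0
    exact ⟨⟨i, by rw [← hl]; exact hi⟩, h3⟩

end Cfsg.Agent.H790.Frm
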