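import Cfsg.Agent.H790.Frm.Chev

/-!
# Frames in the twisted groups obtained by folding (helper790)

`OKf D J A c rp` : the kernel checks; `frame_fold`, `index_odd_fold`.
-/

set_option autoImplicit false
set_option linter.unusedSectionVars false

namespace Cfsg.Agent.H790.Frm.Fold

open CoxeterSystem Cfsg.Agent.ChevalleyStructure.CoxeterGeom Cfsg.Agent.Tits.Roots Cfsg.Agent.Tits.Core
  Cfsg.Agent.Nodes.Reps Cfsg.Agent.Nodes.BNOf Cfsg.Agent.Nodes.Bruhat Cfsg.Agent.Nodes.RGDChev
  Cfsg.Agent.Nodes.FreeTorus Cfsg.Agent.Nodes.Perp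
open Cfsg.Agent.Nodes.RGDFold hiding refl
open Cfsg.Lie Cfsg.Agent.ChevalleyStructure Cfsg.Agent.ChevalleyStructure.Elts
  Cfsg.Agent.ChevalleyStructure.TwistedU Cfsg.Agent.ChevalleyStructure.TwistedFix
open Cfsg.Agent.H790.Frm.Chev

universe u

theorem commute_rspan {Γ ι K : Type*} [Group Γ] [AddGroup K] {x : ι → K → Γ} {S S' : Set ι}
    (h : ∀ r ∈ S, ∀ s ∈ S', ∀ t u, Commute (x r t) (x s u)) {a b : Γ} (ha : a ∈ rspan x S) (hb : b ∈ rspan x S') :
    Commute a b := by
  have h1 : rspan x S ≤ Subgroup.centralizer ((rspan x S' : Subgroup Γ) : Set Γ) := by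
    refine rspan_le x fun r hr t => ?_
    rw [Subgroup.mem_centralizer_iff]
    intro y hy
    have h2 : rspan x S' ≤ Subgroup.centralizer {x r t} := by
      refine rspan_le x fun s hs u => ?_
      rw [Subgroup.mem_centralizer_singleton_iff]
      exact (h r hr s hs t u).eq.symm
    exact Subgroup.mem_centralizer_singleton_iff.1 (h2 hy)
  exact (Subgroup.mem_centralizer_iff.1 (h1 ha) b hb).symm

variable {D : ChevalleyDatum} {l m : ℕ}

/-- the roots over `± V r` -/
def fib (D : ChevalleyDatum) (J : Fin m → List (Fin l)) (r : ℕ) : List ℕ :=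
  (List.range D.nroots).filter fun k => decide (V D J k = V D J r ∨ V D J k = -V D J r)

/-- the kernel checks -/
structure OKf (D : ChevalleyDatum) (J : Fin m → List (Fin l)) (c : FC) (rp : ℕ → ℕ) : Prop where
  hl : c.l = m
  odd : c.N % 2 = 1
  pos : 0 < c.N
  chk : c.chk = true
  chkR : c.chkR = true
  lt : ∀ k < c.N, ∀ a < c.b, c.fr k a < c.m
  rlt : ∀ r < c.m, rp r < D.nroots
  refl : ∀ i : Fin m, ∀ r < c.m, V D J (wp D (J i) (rp r)) = V D J (rp (c.w i r)) ∨ V D J (wp D (J i) (rp r)) =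
    -V D J (rp (c.w i r))
  nonneg : ∀ a < c.b, ∀ i, 0 ≤ V D J (rp (c.fr 0 a)) i
  ns : ∀ a < c.b, ∀ i, V D J (rp (c.fr 0 a)) ≠ sr i
  comm : ∀ a < c.b, ∀ b < c.b, a ≠ b → ∀ r ∈ fib D J (rp (c.fr 0 a)), ∀ s ∈ fib D J (rp (c.fr 0 b)), Nil D r s

variable {M' : CoxeterMatrix (Fin l)} {hp : IsType D l M'} {K : Type u} [Field K] {M : CoxeterMatrix (Fin m)}
  {W : Type*} [Group W] (cs : CoxeterSystem M W) {A : Fin m → Fin m → ℤ} (h : IsCartan M A)
  {J : Fin m → List (Fin l)} {L : List (List ℕ)} (FD : FoldData D M A J L) {c : FC} {rp : ℕ → ℕ} (hc : OKf D J c rp)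

include FD hc

/-- the index of the stabiliser is odd -/
theorem index_odd : ¬ 2 ∣ (VS cs h (SS fun a : Fin c.b => V D J (rp (c.fr 0 a)))).index := by
  refine FC.odd cs h hc.hl hc.chk hc.chkR hc.odd (fun r => V D J (rp r)) ?_ hc.lt
  intro i r hr
  have h1 := FD.wp_V (rp r) (hc.rlt r hr) i
  change rep cs h (cs.simple i) (V D J (rp r)) = V D J (rp (c.w i r)) ∨
    rep cs h (cs.simple i) (V D J (rp r)) = -V D J (rp (c.w i r))
  rw [rep_refl i (V D J (rp r)), ← h1]
  exact hc.refl i r hr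

omit FD in
theorem mem_fib {r k : ℕ} : k ∈ fib D J r ↔ k < D.nroots ∧ (V D J k = V D J r ∨ V D J k = -V D J r) := by
  unfold fib
  rw [List.mem_filter, List.mem_range, decide_eq_true_eq]

variable {n : Fin m → ↥(⊤ : Subgroup (GL D.Idx K))}

omit FD hc in
theorem comm_LL {σ : GL D.Idx K →* GL D.Idx K} {G : Subgroup (GL D.Idx K)} {r s : ℕ}
    (hn : ∀ r' ∈ fib D J r, ∀ s' ∈ fib D J s, Nil D r' s') {a b : ↥G}
    (ha : a ∈ LL (fun z => (R D hp K J σ z).subgroupOf G) (V D J r))
    (hb : b ∈ LL (fun z => (R D hp K J σ z).subgroupOf G) (V D J s)) : Commute a b := by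
  have hle2 : ∀ {r : ℕ}, ∀ g ∈ LL (fun z => (R D hp K J σ z).subgroupOf G) (V D J r),
        (g : GL D.Idx K) ∈ rspan (xG (F := K) hp.inList) {k | k ∈ fib D J r} := by
    intro r
    have h1 : LL (fun z => (R D hp K J σ z).subgroupOf G) (V D J r) ≤
        (rspan (xG (F := K) hp.inList) {k | k ∈ fib D J r}).subgroupOf G := by
      refine sup_le ?_ ?_
      · intro g hg
        rw [Subgroup.mem_subgroupOf] at hg ⊢
        refine rspan_mono _ (fun k hk => ?_) (Subgroup.mem_inf.1 hg).1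
        change k ∈ fib D J r
        unfold fib
        rw [List.mem_filter, List.mem_range, decide_eq_true_eq]
        exact ⟨hk.1, Or.inl hk.2⟩
      · intro g hg
        rw [Subgroup.mem_subgroupOf] at hg ⊢
        refine rspan_mono _ (fun k hk => ?_) (Subgroup.mem_inf.1 hg).1
        change k ∈ fib D J r
        unfold fib
        rw [List.mem_filter, List.mem_range, decide_eq_true_eq]
        exact ⟨hk.1, Or.inr hk.2⟩
    intro g hg
    exact Subgroup.mem_subgroupOf.1 (h1 hg)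
  refine Subtype.ext (commute_rspan (fun r' hr' s' hs' t u => ?_) (hle2 a ha) (hle2 b hb)).eq
  have h1 := hn r' hr' s' hs'
  have hr1 : r' < D.nroots := by
    have : r' ∈ fib D J r := hr'
    unfold fib at this
    rw [List.mem_filter, List.mem_range] at this
    exact this.1
  have hs1 : s' < D.nroots := by
    have : s' ∈ fib D J s := hs'
    unfold fib at this
    rw [List.mem_filter, List.mem_range] at this
    exact this.1
  exact commute_of_nil hp hr1 hs1 h1.1 h1.2.1 h1.2.2 t u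

/-- the frame -/
theorem frame {p : ℕ} {σ : GL D.Idx K →* GL D.Idx K} {G : Subgroup (GL D.Idx K)} {T : Subgroup ↥G} {n : Fin m → ↥G}
    (R0 : RGD cs h p T n (fun z => (R D hp K J σ z).subgroupOf G))
    (hroot : ∀ r < D.nroots, IsRoot cs h (V D J r)) :
    Frame R0 (fun a : Fin c.b => V D J (rp (c.fr 0 a))) where
  root a := hroot _ (hc.rlt _ (hc.lt 0 hc.pos a a.2))
  pos a i := hc.nonneg a a.2 i
  comm a b hab _ _ hx hy :=
    comm_LL (hc.comm a a.2 b b.2 fun h => hab (Fin.ext h)) hx hy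

end Cfsg.Agent.H790.Frm.Fold
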