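import Cfsg.Agent.H790.Frm.RankOne

/-!
# Frames of commuting rank one groups (helper790)

`β : J → roots` positive roots with `LL X (β i)`, `LL X (β j)` commuting for `i ≠ j` (`Frame R β`); `mp F` is the
homomorphism `∏ LL X (β j) → Y`.

* `mem_NN` : `mp F x ∈ N` only if all `x j ∈ N`;
* `NV V` : the representatives of the elements of `V ≤ W`; `KV F V = ⟨LL X (β j), NV V⟩` if `V` permutes the `± β j`;
* `KV_subset` : `KV F V ⊆ U0 N U0` if the `β j` are not simple;
* `index_mul` : `|Y : KV| |T| |V| ∏ |X_j| (|X_j| + 1) = 2 ^ |J| |Y|`.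
-/

set_option autoImplicit false
set_option linter.unusedSectionVars false

namespace Cfsg.Agent.H790.Frm

open CoxeterSystem Cfsg.Agent.ChevalleyStructure.CoxeterGeom Cfsg.Agent.Tits.Roots Cfsg.Agent.Tits.Core
  Cfsg.Agent.Tits.Exchange Cfsg.Agent.Nodes.Reps Cfsg.Agent.Nodes.BNOf Cfsg.Agent.Nodes.StabComb
  Cfsg.Agent.Nodes.Bruhat Cfsg.Agent.Nodes.OppDec Cfsg.Agent.Nodes.NormalForm
  Cfsg.Agent.Nodes.FreeTorus Cfsg.Agent.Nodes.Coroot Cfsg.Agent.Nodes.Perp

section Gen

variable {G : Type*} [Group G]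

theorem cj_of_comm {g : G} {B : Subgroup G} (hg : ∀ b ∈ B, Commute g b) : cj g B = B := by
  ext x
  rw [mem_cj]
  constructor
  · intro hx
    have h1 := hg _ hx
    have h2 : x = g * (g⁻¹ * x * g) * g⁻¹ := by group
    rw [h2, h1.eq, mul_inv_cancel_right]
    exact hx
  · intro hx
    have h1 := hg x hx
    have h2 : g⁻¹ * x * g = x := by rw [mul_assoc, ← h1.eq]; group
    rw [h2]
    exact hx

theorem index_pi' {ι : Type*} [Fintype ι] {G : ι → Type*} [∀ i, Group (G i)] (H : ∀ i, Subgroup (G i)) :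
    (Subgroup.pi Set.univ H).index = ∏ i, (H i).index := by
  simp_rw [Subgroup.index, ← Nat.card_pi]
  refine Nat.card_congr
    ((Quotient.congrRight (fun x y ↦ ?_)).trans (Setoid.piQuotientEquiv _).symm)
  rw [QuotientGroup.leftRel_pi]

theorem card_sup_mul [Finite G] {M N : Subgroup G} (hn : N ≤ Subgroup.normalizer (M : Set G)) :
    Nat.card ↥(M ⊔ N) * Nat.card ↥(M ⊓ N) = Nat.card M * Nat.card N := by
  let _ := Subgroup.normal_subgroupOf_of_le_normalizer hn
  let _ := Subgroup.normal_subgroupOf_sup_of_le_normalizer hn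
  have h1 := Nat.card_congr (QuotientGroup.quotientInfEquivProdNormalizerQuotient N M hn).toEquiv
  have h2 : M.relIndex N = M.relIndex (N ⊔ M) := h1
  have h3 := relIndex_mul_card_inf M N
  have h4 := relIndex_mul_card_inf M (N ⊔ M)
  rw [inf_eq_left.2 (le_sup_right : M ≤ N ⊔ M), ← h2] at h4
  rw [sup_comm M N, ← h4, ← h3]
  ring

end Gen

variable {I W Y : Type*} [Fintype I] [DecidableEq I] [Group W] [Group Y] [Fintype W] {M : CoxeterMatrix I}
  {cs : CoxeterSystem M W} {A : I → I → ℤ} {h : IsCartan M A} {p : ℕ} {T : Subgroup Y} {n : I → Y}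
  {X : (I → ℤ) → Subgroup Y}

/-- the representatives of the elements of `V` -/
def NV (cs : CoxeterSystem M W) (hN : NSys M T n) (V : Subgroup W) : Subgroup Y where
  carrier := {g | ∃ w ∈ V, Rp cs hN w g}
  mul_mem' := by
    rintro a b ⟨v, hv, hv'⟩ ⟨w, hw, hw'⟩
    exact ⟨v * w, mul_mem hv hw, hv'.mul hw'⟩
  one_mem' := ⟨1, one_mem _, rp_one⟩
  inv_mem' := by
    rintro a ⟨v, hv, hv'⟩
    exact ⟨v⁻¹, inv_mem hv, hv'.inv⟩

/-- a family of positive roots with commuting rank one groups -/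
structure Frame (R : RGD cs h p T n X) {J : Type*} (β : J → I → ℤ) : Prop where
  root : ∀ j, IsRoot cs h (β j)
  pos : ∀ j, 0 ≤ β j
  comm : Pairwise fun i j => ∀ x y : Y, x ∈ LL X (β i) → y ∈ LL X (β j) → Commute x y

variable {R : RGD cs h p T n X} {J : Type*} [Fintype J] [DecidableEq J] {β : J → I → ℤ} (F : Frame R β)

/-- the homomorphism `∏ LL X (β j) → Y` -/
noncomputable def mp : (∀ j, ↥(LL X (β j))) →* Y := Subgroup.noncommPiCoprod F.comm

theorem mp_mem {H : Subgroup Y} {x : ∀ j, ↥(LL X (β j))} (hx : ∀ j, (x j : Y) ∈ H) : mp F x ∈ H := by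
  unfold mp
  rw [Subgroup.noncommPiCoprod_apply]
  exact Subgroup.noncommProd_mem _ _ fun j _ => hx j

theorem mp_single (j : J) (y : ↥(LL X (β j))) : mp F (Pi.mulSingle j y) = y :=
  Subgroup.noncommPiCoprod_mulSingle (hcomm := F.comm) j y

theorem mp_split (j : J) (x : ∀ j, ↥(LL X (β j))) : mp F x = x j * mp F (Function.update x j 1) := by
  rw [← mp_single F j (x j), ← map_mul]
  congr 1
  funext i
  rcases eq_or_ne i j with rfl | hij
  · simp
  · simp [hij]

theorem mp_comm {z : Y} {x : ∀ j, ↥(LL X (β j))} (hx : ∀ j, Commute (x j : Y) z) : Commute (mp F x) z := by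
  have : mp F x ∈ Subgroup.centralizer ({z} : Set Y) :=
    mp_mem F fun j => Subgroup.mem_centralizer_singleton_iff.2 (hx j).eq
  exact Subgroup.mem_centralizer_singleton_iff.1 this

/-- the part away from `j` commutes with `LL X (β j)` -/
theorem mp_update_comm (j : J) (x : ∀ j, ↥(LL X (β j))) {z : Y} (hz : z ∈ LL X (β j)) :
    Commute (mp F (Function.update x j 1)) z := by
  refine mp_comm F fun i => ?_
  rcases eq_or_ne i j with rfl | hij
  · simp
  · rw [Function.update_of_ne hij]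
    exact F.comm hij _ _ (x i).2 hz

theorem mp_range : (mp F).range = ⨆ j, LL X (β j) := Subgroup.noncommPiCoprod_range

/-- the action of `mp F x` on `X (β j)` is that of `x j` -/
theorem cj_mp (j : J) (x : ∀ j, ↥(LL X (β j))) {B : Subgroup Y} (hB : B ≤ LL X (β j)) :
    cj (mp F x) B = cj (x j : Y) B := by
  rw [mp_split F j x, cj_mul]
  congr 1
  exact cj_of_comm fun b hb => mp_update_comm F j x (hB hb)

include F

theorem rep_mp {x : ∀ j, ↥(LL X (β j))} {w : W} (hw : Rp cs R.nsys w (mp F x)) {j : J} {v : W}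
    (hv : Rp cs R.nsys v (x j)) : rep cs h w (β j) = rep cs h v (β j) := by
  refine X_injective R ((F.root j).act w) ((F.root j).act v) ?_
  rw [← R.conj_rp hw (F.root j), ← R.conj_rp hv (F.root j), cj_mp F j x (X_le_LL _)]

/-- the decomposition `x = a κ b` -/
theorem exists_dec (x : ∀ j, ↥(LL X (β j))) : ∃ a κ b : ∀ j, ↥(LL X (β j)), x = a * κ * b ∧
    (∀ j, (a j : Y) ∈ X (β j)) ∧ (∀ j, (b j : Y) ∈ X (β j)) ∧ (∀ j, ∃ v, Rp cs R.nsys v (κ j : Y) ∧
      (v = 1 ∧ b j = 1 ∨ (∀ z, rep cs h v z = z - cpr cs h z (β j) • β j))) := by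
  choose w m hm using fun j => exists_rf R (F.root j)
  have key : ∀ j, ∃ a κ b : ↥(LL X (β j)), x j = a * κ * b ∧ (a : Y) ∈ X (β j) ∧ (b : Y) ∈ X (β j) ∧
      ∃ v, Rp cs R.nsys v (κ : Y) ∧ (v = 1 ∧ b = 1 ∨ (∀ z, rep cs h v z = z - cpr cs h z (β j) • β j)) := by
    intro j
    rcases form1 R (F.root j) (hm j) (x j).2 with ⟨a, ha, t, ht, ht', e⟩ | ⟨a, ha, t, ht, ht', b, hb, e⟩
    · exact ⟨⟨a, X_le_LL _ ha⟩, ⟨t, ht'⟩, 1, Subtype.ext (by simpa using e), ha, one_mem _, 1, rp_of_mem ht,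
        Or.inl ⟨rfl, rfl⟩⟩
    · refine ⟨⟨a, X_le_LL _ ha⟩, ⟨t * m j, mul_mem ht' (hm j).mem⟩, ⟨b, X_le_LL _ hb⟩, Subtype.ext ?_, ha, hb, w j,
        ?_, Or.inr (hm j).refl⟩
      · rw [e]
        change a * t * m j * b = a * (t * m j) * b
        group
      · have := (rp_of_mem (cs := cs) (hN := R.nsys) ht).mul (hm j).rp
        rwa [one_mul] at this
  choose a κ b h1 h2 h3 h4 using key
  exact ⟨a, κ, b, funext h1, h2, h3, h4⟩

theorem neg_of_refl {j : J} {v : W} (hv : ∀ z, rep cs h v z = z - cpr cs h z (β j) • β j) :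
    rep cs h v (β j) = -β j := by
  rw [hv, cpr_self cs h (F.root j)]; module

/-- `mp F x ∈ N` only if all `x j ∈ N` -/
theorem mem_NN_of_mp {x : ∀ j, ↥(LL X (β j))} (hx : mp F x ∈ NN cs R.nsys) (j : J) :
    ∃ v, Rp cs R.nsys v (x j : Y) ∧ (v = 1 ∨ ∀ z, rep cs h v z = z - cpr cs h z (β j) • β j) := by
  obtain ⟨a, κ, b, e, ha, hb, hκ⟩ := exists_dec F x
  choose v hv hv' using hκ
  have hκN : mp F κ ∈ NN cs R.nsys := mp_mem F fun i => ⟨v i, hv i⟩
  obtain ⟨w, hw⟩ := hκN
  have hfa : mp F a ∈ RGD.Sup X (RGD.Pos cs h) := mp_mem F fun i => X_le_Pos (F.root i) (F.pos i) (ha i)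
  have hfb : mp F b ∈ RGD.Sup X (NW cs h w) := by
    refine mp_mem F fun i => ?_
    rcases hv' i with ⟨-, h1⟩ | h1
    · rw [h1]; exact one_mem _
    · refine RGD.le_Sup (S := NW cs h w) ⟨F.root i, F.pos i, ?_⟩ (hb i)
      rw [rep_mp F hw (hv i), neg_of_refl F h1]
      exact neg_nonpos.2 (F.pos i)
  have hfb' : mp F b ∈ RGD.Sup X (RGD.Pos cs h) := mp_mem F fun i => X_le_Pos (F.root i) (F.pos i) (hb i)
  obtain ⟨u, hu⟩ := hx
  have e1 : mp F x = mp F a * mp F κ * mp F b := by rw [e, map_mul, map_mul]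
  have h1 : Cell R.nsys cs h X w (mp F x) := by
    rw [e1]
    exact ((cell_of_rp hw).mul_left (RGD.U_le_B hfa)).mul_right (RGD.U_le_B hfb')
  have h2 : u = w := Cell.unique R (cell_of_rp hu) h1
  subst h2
  obtain ⟨e2, -, e3⟩ := normal_form_unique R (one_mem _) hfa hu hw (one_mem _) hfb
    (by rw [one_mul, mul_one]; exact e1)
  have triv : ∀ c : ∀ j, ↥(LL X (β j)), (∀ j, (c j : Y) ∈ X (β j)) → mp F c = 1 → ∀ j, c j = 1 := by
    intro c hc hc1 j
    obtain ⟨g, hg, hg1⟩ : ∃ g ∈ X (-β j), g ≠ 1 := by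
      by_contra h0
      push Not at h0
      exact Cfsg.Agent.Nodes.Bruhat.X_ne_bot R (F.root j).neg ((Subgroup.eq_bot_iff_forall _).2 h0)
    refine Subtype.ext (Cfsg.Agent.Nodes.RankOneSub.ti R (F.root j) (hc j) hg hg1 ?_)
    have h3 : (c j : Y) = (mp F (Function.update c j 1))⁻¹ := by
      rw [mp_split F j c] at hc1
      exact eq_inv_of_mul_eq_one_left hc1
    have h4 := (mp_update_comm F j c (z := g) ((le_sup_right : X (-β j) ≤ LL X (β j)) hg)).inv_left
    rw [← h3] at h4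
    rw [h4.eq, mul_inv_cancel_right]
    exact hg
  have ha1 := triv a ha e2.symm j
  have hb1 := triv b hb e3.symm j
  have hxj : x j = κ j := by
    rw [e]
    change a j * κ j * b j = κ j
    rw [ha1, hb1, one_mul, mul_one]
  rw [hxj]
  exact ⟨v j, hv j, (hv' j).imp And.left id⟩

variable {V : Subgroup W}

/-- the group `⟨LL X (β j), NV V⟩` -/
noncomputable def KV (V : Subgroup W) : Subgroup Y := (mp F).range ⊔ NV cs R.nsys V

variable (hV : ∀ w ∈ V, ∀ j, ∃ i, rep cs h w (β j) = β i ∨ rep cs h w (β j) = -β i)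

include hV

theorem NV_le_normalizer : NV cs R.nsys V ≤ Subgroup.normalizer ((mp F).range : Set Y) := by
  have key : ∀ g ∈ NV cs R.nsys V, cj g (mp F).range ≤ (mp F).range := by
    rintro g ⟨w, hw, hg⟩
    rw [mp_range F, cj_iSup]
    refine iSup_le fun j => ?_
    obtain ⟨i, hi⟩ := hV w hw j
    refine le_trans ?_ (le_iSup (fun j => LL X (β j)) i)
    unfold LL
    rw [cj_sup, R.conj_rp hg (F.root j), R.conj_rp hg (F.root j).neg, map_neg]
    rcases hi with hi | hi
    · rw [hi]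
    · rw [hi, neg_neg]
      exact sup_le le_sup_right le_sup_left
  intro g hg
  rw [mem_normalizer_iff_cj]
  refine le_antisymm (key g hg) ?_
  have h1 := cj_mono g (key g⁻¹ (inv_mem hg))
  rwa [cj_cj_inv] at h1

/-- **`KV ⊆ U0 N U0`** -/
theorem KV_subset (hs : ∀ j i, β j ≠ sr i) {g : Y} (hg : g ∈ KV F V) : g ∈ KK R := by
  classical
  have hbig : ∀ j, β j ∈ Big cs h := fun j => ⟨F.root j, F.pos j, hs j⟩
  have h1 : g ∈ (((mp F).range ⊔ NV cs R.nsys V : Subgroup Y) : Set Y) := hg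
  rw [Subgroup.coe_mul_of_right_le_normalizer_left _ _ (NV_le_normalizer F hV), Set.mem_mul] at h1
  obtain ⟨_, ⟨x, rfl⟩, k, ⟨v, hvV, hk⟩, rfl⟩ := h1
  choose w m hm using fun j => exists_rf R (F.root j)
  -- make `k` positive on the frame
  let s : ∀ j, ↥(LL X (β j)) := fun j => if 0 ≤ rep cs h v⁻¹ (β j) then 1 else ⟨m j, (hm j).mem⟩
  have hsN : mp F s ∈ NN cs R.nsys := mp_mem F fun j => by
    by_cases h0 : 0 ≤ rep cs h v⁻¹ (β j)
    · simp only [s, h0, if_true]; exact one_mem _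
    · simp only [s, h0, if_false]; exact ⟨w j, (hm j).rp⟩
  obtain ⟨r, hr⟩ := hsN
  have hk' : Rp cs R.nsys (r⁻¹ * v) ((mp F s)⁻¹ * k) := hr.inv.mul hk
  -- `(r⁻¹ v)⁻¹ β_j` is in the frame
  have hpos : ∀ j, ∃ i, rep cs h (r⁻¹ * v)⁻¹ (β j) = β i := by
    intro j
    obtain ⟨i, hi⟩ := hV v⁻¹ (inv_mem hvV) j
    refine ⟨i, ?_⟩
    rw [mul_inv_rev, inv_inv, rep_mul_apply]
    by_cases h0 : 0 ≤ rep cs h v⁻¹ (β j)
    · have h2 : rep cs h r (β j) = β j := by
        have h3 : Rp cs R.nsys 1 (s j : Y) := by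
          simp only [s, h0, if_true]; exact rp_one
        rw [rep_mp F hr h3, map_one, Module.End.one_apply]
      rw [h2]
      rcases hi with hi | hi
      · exact hi
      · exfalso
        rw [hi] at h0
        exact (F.root i).neg.not_pos_neg h0 (neg_nonpos.2 (F.pos i))
    · have h2 : rep cs h r (β j) = -β j := by
        have h3 : Rp cs R.nsys (w j) (s j : Y) := by
          simp only [s, h0, if_false]; exact (hm j).rp
        rw [rep_mp F hr h3]
        exact (hm j).neg R (F.root j)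
      rw [h2, map_neg]
      rcases hi with hi | hi
      · exact absurd (by rw [hi]; exact F.pos i) h0
      · rw [hi, neg_neg]
  obtain ⟨a, κ, b, e, ha, hb, hκ⟩ := exists_dec F (x * s)
  refine ⟨mp F a, mp_mem F fun j => RGD.le_Sup (hbig j) (ha j), mp F κ * ((mp F s)⁻¹ * k),
    mul_mem (mp_mem F fun j => ?_) ⟨_, hk'⟩, ((mp F s)⁻¹ * k)⁻¹ * mp F b * ((mp F s)⁻¹ * k), ?_, ?_⟩
  · obtain ⟨v', hv', -⟩ := hκ j
    exact ⟨v', hv'⟩
  · rw [← mem_cj]
    refine mp_mem F fun j => ?_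
    rw [mem_cj]
    obtain ⟨i, hi⟩ := hpos j
    have h2 := R.conj_mem' hk' (F.root j) (hb j)
    rw [hi] at h2
    exact RGD.le_Sup (hbig i) h2
  · have h2 : mp F x * k = mp F (x * s) * ((mp F s)⁻¹ * k) := by rw [map_mul]; group
    rw [h2, e, map_mul, map_mul]
    group

variable (hVr : ∀ j w, (∀ z, rep cs h w z = z - cpr cs h z (β j) • β j) → w ∈ V)

omit hV in
include hVr in
theorem NN_inf_range : NN cs R.nsys ⊓ (mp F).range = NV cs R.nsys V ⊓ (mp F).range := by
  apply le_antisymm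
  · rintro g ⟨hg, x, rfl⟩
    refine ⟨mp_mem F fun j => ?_, x, rfl⟩
    obtain ⟨v, hv, h1⟩ := mem_NN_of_mp F hg j
    refine ⟨v, ?_, hv⟩
    rcases h1 with rfl | h1
    · exact one_mem _
    · exact hVr j v h1
  · rintro g ⟨⟨w, -, hw⟩, hg⟩
    exact ⟨⟨w, hw⟩, hg⟩

omit hV in
theorem relIndex_range : (NN cs R.nsys).relIndex (mp F).range = ∏ j, (NN cs R.nsys).relIndex (LL X (β j)) := by
  rw [← Subgroup.index_comap]
  have h1 : (NN cs R.nsys).comap (mp F) =
      Subgroup.pi Set.univ (fun j => (NN cs R.nsys).subgroupOf (LL X (β j))) := by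
    ext x
    rw [Subgroup.mem_comap, Subgroup.mem_pi]
    constructor
    · intro hx j _
      obtain ⟨v, hv, -⟩ := mem_NN_of_mp F hx j
      exact ⟨v, hv⟩
    · intro hx
      exact mp_mem F fun j => hx j (Set.mem_univ j)
  rw [h1, index_pi']
  rfl

omit hV F in
theorem rp_unique {v w : W} {g : Y} (hv : Rp cs R.nsys v g) (hw : Rp cs R.nsys w g) : v = w :=
  Cell.unique R (cell_of_rp (X := X) hv) (cell_of_rp hw)

omit hV F in
theorem card_NV [Finite Y] : Nat.card ↥(NV cs R.nsys V) = Nat.card T * Nat.card V := by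
  classical
  choose r hr using fun v : W => exists_rp cs R.nsys v
  let f : ↥T × ↥V → ↥(NV cs R.nsys V) := fun z => ⟨r z.2 * z.1, ⟨z.2, z.2.2, (hr z.2).mul_mem_right z.1.2⟩⟩
  have hf : Function.Bijective f := by
    constructor
    · rintro ⟨t, v⟩ ⟨t', v'⟩ e
      have e' : r v * t = r v' * t' := congrArg (fun z : ↥(NV cs R.nsys V) => (z : Y)) e
      have h1 : (v : W) = v' := by
        have h2 := (hr v).mul_mem_right t.2
        rw [e'] at h2
        exact rp_unique (R := R) h2 ((hr v').mul_mem_right t'.2)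
      have h3 : v = v' := Subtype.ext h1
      subst h3
      have h4 : t = t' := Subtype.ext (mul_left_cancel e')
      rw [h4]
    · rintro ⟨g, w, hw, hg⟩
      exact ⟨(⟨(r w)⁻¹ * g, (hr w).unique hg⟩, ⟨w, hw⟩), Subtype.ext (mul_inv_cancel_left _ _)⟩
  rw [← Nat.card_congr (Equiv.ofBijective f hf), Nat.card_prod]

/-- **The index of `KV`.** -/
theorem index_mul [Finite Y] (hVr : ∀ j w, (∀ z, rep cs h w z = z - cpr cs h z (β j) • β j) → w ∈ V) :
    (KV F V).index * ((Nat.card T * Nat.card V) * ∏ j, (Nat.card (X (β j)) * (Nat.card (X (β j)) + 1))) =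
      2 ^ Fintype.card J * Nat.card Y := by
  have h1 := card_sup_mul (NV_le_normalizer F hV)
  have h2 : (NN cs R.nsys).relIndex (mp F).range = (NV cs R.nsys V).relIndex (mp F).range := by
    rw [← Subgroup.inf_relIndex_right, NN_inf_range F hVr, Subgroup.inf_relIndex_right]
  have h3 := relIndex_mul_card_inf (NV cs R.nsys V) (mp F).range
  rw [← h2, relIndex_range F] at h3
  have h4 : 2 ^ Fintype.card J * ∏ j, (NN cs R.nsys).relIndex (LL X (β j)) =
      ∏ j, (Nat.card (X (β j)) * (Nat.card (X (β j)) + 1)) := by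
    rw [← Finset.card_univ, ← Finset.prod_const, ← Finset.prod_mul_distrib]
    refine Finset.prod_congr rfl fun j _ => ?_
    obtain ⟨w, m, hm⟩ := exists_rf R (F.root j)
    exact two_mul_relIndex R (F.root j) (F.pos j) hm
  have h5 := (KV F V).index_mul_card
  rw [card_NV (R := R) (V := V), inf_comm] at h1
  rw [← h4, ← h5]
  have h6 : 0 < Nat.card ↥(NV cs R.nsys V ⊓ (mp F).range) := Nat.card_pos
  refine Nat.eq_of_mul_eq_mul_right h6 ?_
  have h7 : Nat.card ↥(KV F V) * Nat.card ↥(NV cs R.nsys V ⊓ (mp F).range) =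
      Nat.card ↥(mp F).range * (Nat.card T * Nat.card V) := h1
  calc (KV F V).index * (Nat.card T * Nat.card V *
        (2 ^ Fintype.card J * ∏ j, (NN cs R.nsys).relIndex (LL X (β j)))) *
          Nat.card ↥(NV cs R.nsys V ⊓ (mp F).range)
      = 2 ^ Fintype.card J * (KV F V).index * (Nat.card T * Nat.card V *
          ((∏ j, (NN cs R.nsys).relIndex (LL X (β j))) * Nat.card ↥(NV cs R.nsys V ⊓ (mp F).range))) := by ring
    _ = 2 ^ Fintype.card J * (KV F V).index * (Nat.card T * Nat.card V * Nat.card ↥(mp F).range) := by rw [h3]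
    _ = 2 ^ Fintype.card J * (KV F V).index * (Nat.card ↥(mp F).range * (Nat.card T * Nat.card V)) := by ring
    _ = 2 ^ Fintype.card J * ((KV F V).index * Nat.card ↥(KV F V)) *
          Nat.card ↥(NV cs R.nsys V ⊓ (mp F).range) := by rw [← h7]; ring

end Cfsg.Agent.H790.Frm
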