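import Cfsg.Agent.Nodes.NormalForm
import Cfsg.Agent.H68.MeetBase

/-!
# `U₀ N U₀ ∩ (U₀ N U₀) ^ u` for a regular unipotent element `u` (helper790)

`R : RGD cs h p T n X` a root group datum in characteristic `p`.

* `Big cs h` : the positive roots which are not simple; `U0 = Sup X Big`;
* `KK R = U0 * N * U0`;
* `mem_U0` : `g`, `u g u⁻¹ ∈ KK R` implies `g ∈ U0`, for `u ∈ U` regular (modulo `U0`), if the torus acts freely on `u`;
* `exists_reg` : elements `u` with prescribed simple coordinates;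
* `meetIn` : if `K ⊆ KK R` is a subgroup of index prime to `l ≠ p` then `MeetIn l Y`.
-/

set_option autoImplicit false
set_option linter.unusedSectionVars false

namespace Cfsg.Agent.H790.Frm

open CoxeterSystem Cfsg.Agent.ChevalleyStructure.CoxeterGeom Cfsg.Agent.Tits.Roots Cfsg.Agent.Tits.Core
  Cfsg.Agent.Tits.Exchange Cfsg.Agent.Nodes.Reps Cfsg.Agent.Nodes.BNOf Cfsg.Agent.Nodes.StabComb
  Cfsg.Agent.Nodes.Bruhat Cfsg.Agent.Nodes.OppDec Cfsg.Agent.Nodes.NormalForm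

variable {I W Y : Type*} [Fintype I] [DecidableEq I] [Group W] [Group Y] {M : CoxeterMatrix I}
  {cs : CoxeterSystem M W} {A : I → I → ℤ} {h : IsCartan M A} {p : ℕ} {T : Subgroup Y} {n : I → Y}
  {X : (I → ℤ) → Subgroup Y}

/-- the positive roots which are not simple -/
def Big (cs : CoxeterSystem M W) (h : IsCartan M A) : Set (I → ℤ) := {x | IsRoot cs h x ∧ 0 ≤ x ∧ ∀ i, x ≠ sr i}

/-- the join of the root groups of the positive roots which are not simple -/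
def U0 (cs : CoxeterSystem M W) (h : IsCartan M A) (X : (I → ℤ) → Subgroup Y) : Subgroup Y := RGD.Sup X (Big cs h)

theorem U0_le_V (i : I) : U0 cs h X ≤ RGD.Sup X (RGD.PosNe cs h i) :=
  RGD.Sup_mono fun _ hx => ⟨hx.1, hx.2.1, hx.2.2 i⟩

theorem U0_le_U : U0 cs h X ≤ RGD.Sup X (RGD.Pos cs h) := RGD.Sup_mono fun _ hx => ⟨hx.1, hx.2.1⟩

theorem V_le_U (i : I) : RGD.Sup X (RGD.PosNe cs h i) ≤ RGD.Sup X (RGD.Pos cs h) :=
  RGD.Sup_mono fun _ hx => ⟨hx.1, hx.2.1⟩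

variable (R : RGD cs h p T n X)

/-- the set `U0 N U0` -/
def KK : Set Y := {g | ∃ b ∈ U0 cs h X, ∃ k ∈ NN cs R.nsys, ∃ c ∈ U0 cs h X, g = b * k * c}

include R

theorem U_le_normalizer_V (i : I) :
    RGD.Sup X (RGD.Pos cs h) ≤ Subgroup.normalizer (RGD.Sup X (RGD.PosNe cs h i) : Set Y) := by
  rw [R.Upos_eq i]
  exact sup_le (R.X_le_normalizer_V i) Subgroup.le_normalizer

theorem conj_V {i : I} {u v : Y} (hu : u ∈ RGD.Sup X (RGD.Pos cs h)) (hv : v ∈ RGD.Sup X (RGD.PosNe cs h i)) :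
    u * v * u⁻¹ ∈ RGD.Sup X (RGD.PosNe cs h i) :=
  (Subgroup.mem_normalizer_iff.1 (U_le_normalizer_V R i hu) v).1 hv

theorem conj_V' {i : I} {u v : Y} (hu : u ∈ RGD.Sup X (RGD.Pos cs h)) (hv : v ∈ RGD.Sup X (RGD.PosNe cs h i)) :
    u⁻¹ * v * u ∈ RGD.Sup X (RGD.PosNe cs h i) := by
  have := conj_V R (inv_mem hu) hv
  rwa [inv_inv] at this

theorem tconj_V {i : I} {t v : Y} (ht : t ∈ T) (hv : v ∈ RGD.Sup X (RGD.PosNe cs h i)) :
    t * v * t⁻¹ ∈ RGD.Sup X (RGD.PosNe cs h i) :=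
  (Subgroup.mem_normalizer_iff.1 (R.T_le_normalizer (fun _ hx => hx.1) ht) v).1 hv

theorem tconj_U {t v : Y} (ht : t ∈ T) (hv : v ∈ RGD.Sup X (RGD.Pos cs h)) :
    t * v * t⁻¹ ∈ RGD.Sup X (RGD.Pos cs h) :=
  (Subgroup.mem_normalizer_iff.1 (R.T_le_normalizer_U ht) v).1 hv

/-- `g`, `u g u⁻¹ ∈ U0 N U0` implies `g ∈ U0` -/
theorem mem_U0 [Finite W] {u : Y} (hu : u ∈ RGD.Sup X (RGD.Pos cs h))
    (hreg : ∀ i, u ∉ RGD.Sup X (RGD.PosNe cs h i))
    (hT : ∀ t ∈ T, (∀ i, u⁻¹ * (t * u * t⁻¹) ∈ RGD.Sup X (RGD.PosNe cs h i)) → t = 1)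
    {g : Y} (hg : g ∈ KK R) (hg' : u * g * u⁻¹ ∈ KK R) : g ∈ U0 cs h X := by
  obtain ⟨b1, hb1, k1, ⟨w1, hk1⟩, c1, hc1, e1⟩ := hg
  obtain ⟨b2, hb2, k2, ⟨w2, hk2⟩, c2, hc2, e2⟩ := hg'
  have hv : b2⁻¹ * u * b1 ∈ RGD.Sup X (RGD.Pos cs h) :=
    mul_mem (mul_mem (inv_mem (U0_le_U hb2)) hu) (U0_le_U hb1)
  have hv' : c2 * u * c1⁻¹ ∈ RGD.Sup X (RGD.Pos cs h) :=
    mul_mem (mul_mem (U0_le_U hc2) hu) (inv_mem (U0_le_U hc1))
  set v := b2⁻¹ * u * b1 with hvd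
  set v' := c2 * u * c1⁻¹ with hvd'
  have key : v * k1 = k2 * v' := by
    have h1 : u * (b1 * k1 * c1) = b2 * k2 * c2 * u := by
      rw [← e1, ← e2]; group
    have h2 : v * k1 = b2⁻¹ * (u * (b1 * k1 * c1)) * c1⁻¹ := by rw [hvd]; group
    rw [h2, h1, hvd']; group
  have hw : w1 = w2 := by
    have h1 : Cell R.nsys cs h X w1 (v * k1) := (cell_of_rp hk1).mul_left (RGD.U_le_B hv)
    have h2 : Cell R.nsys cs h X w2 (v * k1) := by
      rw [key]; exact (cell_of_rp hk2).mul_right (RGD.U_le_B hv')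
    exact Cell.unique R h1 h2
  subst hw
  have ht : k1⁻¹ * k2 ∈ T := hk1.unique hk2
  have hB : k1 * v' * k1⁻¹ ∈ RGD.B cs h T X := by
    have h1 : k1 * v' * k1⁻¹ = (k1 * (k1⁻¹ * k2) * k1⁻¹)⁻¹ * v := by
      have : v = k2 * v' * k1⁻¹ := by rw [← key]; group
      rw [this]; group
    rw [h1]
    refine mul_mem (inv_mem (RGD.T_le_B ?_)) (RGD.U_le_B hv)
    exact (Subgroup.mem_normalizer_iff.1 hk1.mem_normalizer _).1 ht
  have hPW : v' ∈ RGD.Sup X (PW cs h w1) := by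
    have h1 := mem_PW_of_conj R hk1.inv hv' (by rwa [inv_inv])
    rwa [inv_inv] at h1
  have hw1 : w1 = 1 := by
    by_contra hne
    obtain ⟨i, hi⟩ := cs.exists_rightDescent_of_ne_one hne
    have hneg : rep cs h w1 (sr i) ≤ 0 := nonpos_of_lt cs h w1 i hi
    have h1 : v' ∈ RGD.Sup X (RGD.PosNe cs h i) := by
      refine RGD.Sup_mono (S := PW cs h w1) (S' := RGD.PosNe cs h i) (fun x hx => ⟨hx.1, hx.2.1, ?_⟩) hPW
      rintro rfl
      exact (hx.1.act w1).not_pos_neg hx.2.2 hneg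
    apply hreg i
    have h2 : u = c2⁻¹ * v' * c1 := by rw [hvd']; group
    rw [h2]
    exact mul_mem (mul_mem (inv_mem (U0_le_V i hc2)) h1) (U0_le_V i hc1)
  subst hw1
  have hk1T := hk1.mem_of_one
  have hk2T := hk2.mem_of_one
  have hUT : v * (k1 * v'⁻¹ * k1⁻¹) = 1 := by
    have h1 : v * (k1 * v'⁻¹ * k1⁻¹) ∈ RGD.Sup X (RGD.Pos cs h) ⊓ T := by
      rw [Subgroup.mem_inf]
      refine ⟨mul_mem hv (tconj_U R hk1T (inv_mem hv')), ?_⟩
      have : v * (k1 * v'⁻¹ * k1⁻¹) = k2 * k1⁻¹ := by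
        calc v * (k1 * v'⁻¹ * k1⁻¹) = (v * k1) * v'⁻¹ * k1⁻¹ := by group
          _ = k2 * k1⁻¹ := by rw [key]; group
      rw [this]
      exact mul_mem hk2T (inv_mem hk1T)
    rwa [U_inf_T R, Subgroup.mem_bot] at h1
  have hk : k1 = 1 := by
    refine hT k1 hk1T fun i => ?_
    have h1 : k1 * u * k1⁻¹ = (k1 * c2 * k1⁻¹)⁻¹ * (b2⁻¹ * u * b1) * (k1 * c1 * k1⁻¹) := by
      have h2 : k1 * v' * k1⁻¹ = v := by
        have : v = v * (k1 * v'⁻¹ * k1⁻¹) * (k1 * v' * k1⁻¹) := by group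
        rw [this, hUT, one_mul]
      rw [← hvd, ← h2, hvd']
      group
    have h3 : u⁻¹ * (k1 * u * k1⁻¹) =
        (u⁻¹ * ((k1 * c2 * k1⁻¹)⁻¹ * b2⁻¹) * u) * (b1 * (k1 * c1 * k1⁻¹)) := by
      rw [h1]; group
    rw [h3]
    refine mul_mem (conj_V' R hu (mul_mem (inv_mem (tconj_V R hk1T (U0_le_V i hc2))) (inv_mem (U0_le_V i hb2))))
      (mul_mem (U0_le_V i hb1) (tconj_V R hk1T (U0_le_V i hc1)))
  rw [e1, hk, mul_one]
  exact mul_mem hb1 hc1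

/-- an element of `U` with prescribed simple coordinates -/
theorem exists_reg {x : I → Y} (hx : ∀ i, x i ∈ X (sr i)) :
    ∃ u ∈ RGD.Sup X (RGD.Pos cs h), ∀ i, ∃ v ∈ RGD.Sup X (RGD.PosNe cs h i), u = x i * v := by
  classical
  have hxU : ∀ i, x i ∈ RGD.Sup X (RGD.Pos cs h) := fun i =>
    RGD.le_Sup (S := RGD.Pos cs h) ⟨isRoot_sr cs h i, sr_nonneg i⟩ (hx i)
  have hxV : ∀ i j, j ≠ i → x j ∈ RGD.Sup X (RGD.PosNe cs h i) := fun i j hji =>
    RGD.le_Sup (S := RGD.PosNe cs h i) ⟨isRoot_sr cs h j, sr_nonneg j, fun he => hji (by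
      have h1 := congrFun he j
      rw [sr_self] at h1
      by_contra h2
      rw [sr_ne h2] at h1
      exact one_ne_zero h1)⟩ (hx j)
  have key : ∀ l : List I, l.Nodup → (l.map x).prod ∈ RGD.Sup X (RGD.Pos cs h) ∧ ∀ i,
      (i ∉ l → (l.map x).prod ∈ RGD.Sup X (RGD.PosNe cs h i)) ∧
      (i ∈ l → ∃ v ∈ RGD.Sup X (RGD.PosNe cs h i), (l.map x).prod = x i * v) := by
    intro l
    induction l with
    | nil => exact fun _ => ⟨one_mem _, fun i => ⟨fun _ => one_mem _, fun hi => absurd hi (by simp)⟩⟩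
    | cons j l ih =>
      intro hnd
      rw [List.nodup_cons] at hnd
      obtain ⟨ih1, ih2⟩ := ih hnd.2
      rw [List.map_cons, List.prod_cons]
      refine ⟨mul_mem (hxU j) ih1, fun i => ⟨fun hi => ?_, fun hi => ?_⟩⟩
      · rw [List.mem_cons, not_or] at hi
        exact mul_mem (hxV i j (Ne.symm hi.1)) ((ih2 i).1 hi.2)
      · rcases eq_or_ne i j with rfl | hij
        · exact ⟨_, (ih2 i).1 hnd.1, rfl⟩
        · have hil : i ∈ l := (List.mem_cons.1 hi).resolve_left hij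
          obtain ⟨v, hv, e⟩ := (ih2 i).2 hil
          refine ⟨((x i)⁻¹ * x j * x i) * v, mul_mem (conj_V' R (hxU i) (hxV i j (Ne.symm hij))) hv, ?_⟩
          rw [e]; group
  obtain ⟨h1, h2⟩ := key Finset.univ.toList (Finset.nodup_toList _)
  exact ⟨_, h1, fun i => (h2 i).2 (by simp)⟩

/-- **Elements `g` with `g`, `u g u⁻¹ ∈ U0 N U0`.** -/
theorem exists_elt [Finite W] {x : I → Y} (hx : ∀ i, x i ∈ X (sr i)) (hx1 : ∀ i, x i ≠ 1)
    (hT : ∀ t ∈ T, (∀ i, t * x i = x i * t) → t = 1) :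
    ∃ u : Y, u ∈ RGD.Sup X (RGD.Pos cs h) ∧ ∀ g ∈ KK R, u * g * u⁻¹ ∈ KK R → g ∈ U0 cs h X := by
  obtain ⟨u, hu, huv⟩ := exists_reg R hx
  refine ⟨u, hu, fun g hg hg' => mem_U0 R hu (fun i hi => ?_) (fun t ht htu => ?_) hg hg'⟩
  · obtain ⟨v, hv, e⟩ := huv i
    apply hx1 i
    refine eq_one_of_mem_PosNe R (hx i) ?_
    have : x i = u * v⁻¹ := by rw [e]; group
    rw [this]
    exact mul_mem hi (inv_mem hv)
  · refine hT t ht fun i => ?_
    obtain ⟨v, hv, e⟩ := huv i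
    have h1 := htu i
    have h2 : (x i)⁻¹ * (t * x i * t⁻¹) = v * (u⁻¹ * (t * u * t⁻¹)) * (t * v * t⁻¹)⁻¹ := by
      rw [e]; group
    have h3 : (x i)⁻¹ * (t * x i * t⁻¹) ∈ RGD.Sup X (RGD.PosNe cs h i) := by
      rw [h2]
      exact mul_mem (mul_mem hv h1) (inv_mem (tconj_V R ht hv))
    have h4 : (x i)⁻¹ * (t * x i * t⁻¹) ∈ X (sr i) := by
      refine mul_mem (inv_mem (hx i)) ?_
      have := R.tor (sr i) (isRoot_sr cs h i) t ht
      rw [← this]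
      exact conj_mem_cj.2 (hx i)
    have h5 := eq_one_of_mem_PosNe R h4 h3
    have h6 : t * x i = x i * ((x i)⁻¹ * (t * x i * t⁻¹)) * t := by group
    rw [h6, h5, mul_one]

/-- **`MeetIn`** from a subgroup of index prime to `l` contained in `U0 N U0`. -/
theorem meetIn [Finite W] [Finite Y] {l : ℕ} [Fact l.Prime] [Fact p.Prime] (hlp : l ≠ p) {x : I → Y}
    (hx : ∀ i, x i ∈ X (sr i)) (hx1 : ∀ i, x i ≠ 1) (hT : ∀ t ∈ T, (∀ i, t * x i = x i * t) → t = 1)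
    (K : Subgroup Y) (hK : ∀ g ∈ K, g ∈ KK R) (hi : ¬ l ∣ K.index) : H68.MeetB.MeetIn l Y := by
  obtain ⟨S⟩ : Nonempty (Sylow l K) := inferInstance
  obtain ⟨u, -, hu⟩ := exists_elt R hx hx1 hT
  have hS : ∀ y ∈ (S : Subgroup K).map K.subtype, y ∈ K := by
    rintro _ ⟨z, -, rfl⟩
    exact z.2
  refine H68.MeetB.MeetIn.of_one ((S : Subgroup K).map K.subtype) (S.isPGroup'.map _) ?_ ⟨u, fun y hy hy' => ?_⟩
  · rw [Subgroup.index_map_subtype]
    intro h1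
    rcases (Fact.out : l.Prime).dvd_mul.1 h1 with h2 | h2
    · exact S.not_dvd_index h2
    · exact hi h2
  · have h1 : y ∈ RGD.Sup X (RGD.Pos cs h) := U0_le_U (hu y (hK y (hS y hy)) (hK _ (hS _ hy')))
    obtain ⟨a, ha⟩ := R.isPGroup_Upos ⟨y, h1⟩
    obtain ⟨b, hb⟩ := (S.isPGroup'.map K.subtype) ⟨y, hy⟩
    have ha' : y ^ p ^ a = 1 := by
      have := congrArg Subtype.val ha
      simpa using this
    have hb' : y ^ l ^ b = 1 := by
      have := congrArg Subtype.val hb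
      simpa using this
    have hc : (p ^ a).Coprime (l ^ b) :=
      Nat.Coprime.pow _ _ ((Nat.coprime_primes (Fact.out : p.Prime) (Fact.out : l.Prime)).2 (Ne.symm hlp))
    have h2 : orderOf y ∣ 1 := by
      have h3 := Nat.dvd_gcd (orderOf_dvd_of_pow_eq_one ha') (orderOf_dvd_of_pow_eq_one hb')
      rwa [hc] at h3
    exact orderOf_eq_one_iff.1 (Nat.dvd_one.1 h2)

end Cfsg.Agent.H790.Frm
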