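import Cfsg.Agent.H790.Frm.Comb

/-!
# Odd index of the stabiliser of a frame (helper790)

`index_dvd` : `G` generated by the `s i`, `𝓕 : Fin N → Ω` with `s i • 𝓕 k = 𝓕 (nx i k)`, `nx i` involutions, every `k`
reachable from `0`: the index of the stabiliser of `𝓕 0` divides `N`.
`VS_index_dvd` : the same for the Weyl group and sets of vectors.
-/

set_option autoImplicit false
set_option linter.unusedSectionVars false

namespace Cfsg.Agent.H790.Frm

open CoxeterSystem Cfsg.Agent.ChevalleyStructure.CoxeterGeom Cfsg.Agent.Tits.Roots Cfsg.Agent.Tits.Core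
  Cfsg.Agent.Tits.Exchange Cfsg.Agent.Nodes.Reps Cfsg.Agent.Nodes.BNOf

theorem index_dvd {G Ω ι : Type*} [Group G] [MulAction G Ω] (s : ι → G)
    (hs : Subgroup.closure (Set.range s) = ⊤) {N : ℕ} (hN : 0 < N) (𝓕 : ℕ → Ω) (nx : ι → ℕ → ℕ)
    (hlt : ∀ i, ∀ k < N, nx i k < N) (hnx : ∀ i, ∀ k < N, nx i (nx i k) = k)
    (heq : ∀ i, ∀ k < N, s i • 𝓕 k = 𝓕 (nx i k))
    (hreach : ∀ k < N, k ≠ 0 → ∃ i, nx i k < k) : (MulAction.stabilizer G (𝓕 0)).index ∣ N := by
  classical
  let f : Ω → ℕ := fun ω => ((Finset.range N).filter fun k => 𝓕 k = ω).card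
  have hf : ∀ i ω, f (s i • ω) = f ω := by
    intro i ω
    refine Finset.card_bij' (fun k _ => nx i k) (fun k _ => nx i k) ?_ ?_ ?_ ?_
    · intro k hk
      rw [Finset.mem_filter, Finset.mem_range] at hk ⊢
      refine ⟨hlt i k hk.1, ?_⟩
      have h1 := heq i (nx i k) (hlt i k hk.1)
      rw [hnx i k hk.1, hk.2] at h1
      exact smul_left_cancel _ h1
    · intro k hk
      rw [Finset.mem_filter, Finset.mem_range] at hk ⊢
      refine ⟨hlt i k hk.1, ?_⟩
      rw [← heq i k hk.1, hk.2]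
    · intro k hk
      rw [Finset.mem_filter, Finset.mem_range] at hk
      exact hnx i k hk.1
    · intro k hk
      rw [Finset.mem_filter, Finset.mem_range] at hk
      exact hnx i k hk.1
  have hfg : ∀ (g : G) ω, f (g • ω) = f ω := by
    intro g
    have hg : g ∈ Subgroup.closure (Set.range s) := by rw [hs]; trivial
    induction hg using Subgroup.closure_induction with
    | mem x hx => obtain ⟨i, rfl⟩ := hx; exact hf i
    | one => intro ω; rw [one_smul]
    | mul x y _ _ hx hy => intro ω; rw [mul_smul, hx, hy]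
    | inv x _ hx => intro ω; rw [← hx (x⁻¹ • ω), smul_inv_smul]
  have horb : ∀ k < N, 𝓕 k ∈ MulAction.orbit G (𝓕 0) := by
    intro k
    induction k using Nat.strong_induction_on with
    | _ k ih =>
      intro hk
      rcases eq_or_ne k 0 with rfl | h0
      · exact MulAction.mem_orbit_self _
      · obtain ⟨i, hi⟩ := hreach k hk h0
        obtain ⟨g, hg⟩ := ih _ hi (hlt i k hk)
        have h1 := heq i (nx i k) (hlt i k hk)
        rw [hnx i k hk] at h1
        exact ⟨s i * g, by change (s i * g) • 𝓕 0 = 𝓕 k; rw [mul_smul, ← h1]; congr 1⟩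
  have hpos : 0 < f (𝓕 0) := Finset.card_pos.2 ⟨0, by rw [Finset.mem_filter, Finset.mem_range]; exact ⟨hN, rfl⟩⟩
  have himg : (((Finset.range N).image 𝓕 : Finset Ω) : Set Ω) = MulAction.orbit G (𝓕 0) := by
    ext ω
    rw [Finset.mem_coe, Finset.mem_image]
    constructor
    · rintro ⟨k, hk, rfl⟩
      exact horb k (Finset.mem_range.1 hk)
    · rintro ⟨g, rfl⟩
      have h1 : 0 < f (g • 𝓕 0) := by rw [hfg]; exact hpos
      obtain ⟨k, hk⟩ := Finset.card_pos.1 h1
      rw [Finset.mem_filter] at hk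
      exact ⟨k, hk.1, hk.2⟩
  have hcard : N = ((Finset.range N).image 𝓕).card * f (𝓕 0) := by
    conv_lhs => rw [← Finset.card_range N]
    rw [Finset.card_eq_sum_card_image 𝓕]
    rw [Finset.sum_const_nat (m := f (𝓕 0))]
    intro ω hω
    have h1 : ω ∈ (((Finset.range N).image 𝓕 : Finset Ω) : Set Ω) := hω
    rw [himg] at h1
    obtain ⟨g, rfl⟩ := h1
    exact hfg g _
  rw [MulAction.index_stabilizer, ← himg, Set.ncard_coe_finset]
  exact ⟨_, hcard⟩

section Act

variable {I W : Type*} [DecidableEq I] [Fintype I] [Group W] {M : CoxeterMatrix I}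
  (cs : CoxeterSystem M W) {A : I → I → ℤ} (h : IsCartan M A)

/-- the index of the stabiliser of `𝓕 0` -/
theorem VS_index_dvd {N : ℕ} (hN : 0 < N) (𝓕 : ℕ → Set (I → ℤ)) (nx : I → ℕ → ℕ)
    (hlt : ∀ i, ∀ k < N, nx i k < N) (hnx : ∀ i, ∀ k < N, nx i (nx i k) = k)
    (hsub : ∀ i, ∀ k < N, ∀ x ∈ 𝓕 k, rep cs h (cs.simple i) x ∈ 𝓕 (nx i k))
    (hreach : ∀ k < N, k ≠ 0 → ∃ i, nx i k < k) : (VS cs h (𝓕 0)).index ∣ N := by
  letI := actS cs h
  refine index_dvd (G := W) (Ω := Set (I → ℤ)) cs.simple cs.subgroup_closure_range_simple hN 𝓕 nx hlt hnx ?_ hreach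
  intro i k hk
  change rep cs h (cs.simple i) '' 𝓕 k = 𝓕 (nx i k)
  apply Set.Subset.antisymm
  · rintro _ ⟨x, hx, rfl⟩
    exact hsub i k hk x hx
  · intro y hy
    refine ⟨rep cs h (cs.simple i) y, ?_, ?_⟩
    · have := hsub i (nx i k) (hlt i k hk) y hy
      rwa [hnx i k hk] at this
    · have h1 : rep cs h (cs.simple i * cs.simple i) y = y := by
        rw [cs.simple_mul_simple_self, map_one, Module.End.one_apply]
      rwa [rep_mul_apply] at h1

end Act

end Cfsg.Agent.H790.Frm
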