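import Cfsg.Agent.H790.Frm.Inter
import Cfsg.Agent.Nodes.RankOneSub

/-!
# The rank one groups `LL X y = ⟨X y, X (-y)⟩` and `N` (helper790)

`y` a positive root, `m ∈ LL X y` over the reflection of `y`.

* `form1` : `LL X y = X y T₁ ∪ X y T₁ m X y`, `T₁ = T ∩ LL X y`;
* `mem_form` : the elements of `N ∩ LL X y` are in `T₁ ∪ T₁ m`;
* `two_mul_relIndex` : `2 |LL X y : N ∩ LL X y| = |X y| (|X y| + 1)`.
-/

set_option autoImplicit false
set_option linter.unusedSectionVars false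

namespace Cfsg.Agent.H790.Frm

open CoxeterSystem Cfsg.Agent.ChevalleyStructure.CoxeterGeom Cfsg.Agent.Tits.Roots Cfsg.Agent.Tits.Core
  Cfsg.Agent.Tits.Exchange Cfsg.Agent.Nodes.Reps Cfsg.Agent.Nodes.BNOf Cfsg.Agent.Nodes.StabComb
  Cfsg.Agent.Nodes.Bruhat Cfsg.Agent.Nodes.OppDec Cfsg.Agent.Nodes.NormalForm
  Cfsg.Agent.Nodes.FreeTorus Cfsg.Agent.Nodes.Coroot Cfsg.Agent.Nodes.Perp

variable {I W Y : Type*} [Fintype I] [DecidableEq I] [Group W] [Group Y] [Fintype W] {M : CoxeterMatrix I}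
  {cs : CoxeterSystem M W} {A : I → I → ℤ} {h : IsCartan M A} {p : ℕ} {T : Subgroup Y} {n : I → Y}
  {X : (I → ℤ) → Subgroup Y}

theorem relIndex_mul_card_inf {G : Type*} [Group G] [Finite G] (H K : Subgroup G) :
    H.relIndex K * Nat.card ↥(H ⊓ K) = Nat.card K := by
  have h1 := (H.subgroupOf K).index_mul_card
  have h2 : Nat.card ↥(H.subgroupOf K) = Nat.card ↥(H ⊓ K) := by
    rw [← Subgroup.subgroupOf_map_subtype H K]
    exact (Nat.card_congr ((H.subgroupOf K).equivMapOfInjective _ K.subtype_injective).toEquiv)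
  rwa [h2] at h1

/-- `m ∈ LL X y` represents the reflection of `y` -/
structure Rf (R : RGD cs h p T n X) (y : I → ℤ) (w : W) (m : Y) : Prop where
  mem : m ∈ LL X y
  rp : Rp cs R.nsys w m
  refl : ∀ x, rep cs h w x = x - cpr cs h x y • y

variable (R : RGD cs h p T n X)

include R

theorem exists_rf {y : I → ℤ} (hy : IsRoot cs h y) : ∃ w m, Rf R y w m := by
  obtain ⟨b, hb, hb1⟩ : ∃ b ∈ X (-y), b ≠ 1 := by
    by_contra h0
    push Not at h0
    exact Cfsg.Agent.Nodes.Bruhat.X_ne_bot R hy.neg ((Subgroup.eq_bot_iff_forall _).2 h0)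
  obtain ⟨a, ha, c, hc, w, hm, hw⟩ := exists_refl_LL R hy hb hb1
  exact ⟨w, a * b * c, mul_mem (mul_mem ((le_sup_left : X y ≤ LL X y) ha) ((le_sup_right : X (-y) ≤ LL X y) hb))
    ((le_sup_left : X y ≤ LL X y) hc), hm, hw⟩

omit R in
theorem X_le_LL (y : I → ℤ) : X y ≤ LL X y := le_sup_left

variable {y : I → ℤ} (hy : IsRoot cs h y) (hy0 : 0 ≤ y) {w : W} {m : Y} (hm : Rf R y w m)

include hy

theorem Rf.neg (hm : Rf R y w m) : rep cs h w y = -y := by
  rw [hm.refl, cpr_self cs h hy]; module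

include hm

theorem form1 {g : Y} (hg : g ∈ LL X y) : (∃ a ∈ X y, ∃ t ∈ T, t ∈ LL X y ∧ g = a * t) ∨
    ∃ a ∈ X y, ∃ t ∈ T, t ∈ LL X y ∧ ∃ b ∈ X y, g = a * t * m * b := by
  rcases Cfsg.Agent.Nodes.RankOneSub.exists_form R hy hm.rp hm.refl (show g ∈ T ⊔ LL X y from le_sup_right (a := T) hg) with
    ⟨a, ha, t, ht, e⟩ | ⟨a, ha, t, ht, b, hb, e⟩
  · refine Or.inl ⟨a, ha, t, ht, ?_, e⟩
    have : t = a⁻¹ * g := by rw [e]; group
    rw [this]
    exact mul_mem (inv_mem (X_le_LL y ha)) hg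
  · refine Or.inr ⟨a, ha, t, ht, ?_, b, hb, e⟩
    have : t = a⁻¹ * g * b⁻¹ * m⁻¹ := by rw [e]; group
    rw [this]
    exact mul_mem (mul_mem (mul_mem (inv_mem (X_le_LL y ha)) hg) (inv_mem (X_le_LL y hb))) (inv_mem hm.mem)

include hy0

omit R hm in
theorem X_le_Pos : X y ≤ RGD.Sup X (RGD.Pos cs h) := RGD.le_Sup (S := RGD.Pos cs h) ⟨hy, hy0⟩

theorem X_le_NW : X y ≤ RGD.Sup X (NW cs h w) :=
  RGD.le_Sup (S := NW cs h w) ⟨hy, hy0, by rw [hm.neg R hy]; exact neg_nonpos.2 hy0⟩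

/-- uniqueness of the second form -/
theorem form_unique {a t b a' t' b' : Y} (ha : a ∈ X y) (ht : t ∈ T) (hb : b ∈ X y) (ha' : a' ∈ X y) (ht' : t' ∈ T)
    (hb' : b' ∈ X y) (e : a * t * m * b = a' * t' * m * b') : a = a' ∧ t = t' ∧ b = b' := by
  have h1 : ∀ {t : Y}, t ∈ T → Rp cs R.nsys w (t * m) := fun {t} ht => by
    have := (rp_of_mem (cs := cs) (hN := R.nsys) ht).mul hm.rp
    rwa [one_mul] at this
  obtain ⟨e1, e2, e3⟩ := normal_form_unique R (X_le_Pos hy hy0 ha) (X_le_Pos hy hy0 ha') (h1 ht) (h1 ht')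
    (X_le_NW R hy hy0 hm hb) (X_le_NW R hy hy0 hm hb') (by rw [← mul_assoc, ← mul_assoc]; exact e)
  exact ⟨e1, mul_right_cancel e2, e3⟩

/-- the elements of `N ∩ LL X y`, first form -/
theorem mem_form1 {a t : Y} (ha : a ∈ X y) (ht : t ∈ T) (hN : a * t ∈ NN cs R.nsys) : a = 1 := by
  have h1 : a ∈ NN cs R.nsys := by
    have : a = a * t * t⁻¹ := by group
    rw [this]
    exact mul_mem hN ⟨1, rp_of_mem (inv_mem ht)⟩
  have h2 : a ∈ RGD.B cs h T X ⊓ NN cs R.nsys := ⟨RGD.U_le_B (X_le_Pos hy hy0 ha), h1⟩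
  rw [R.B_inf_NN] at h2
  have h3 : a ∈ RGD.Sup X (RGD.Pos cs h) ⊓ T := ⟨X_le_Pos hy hy0 ha, h2⟩
  rwa [U_inf_T R, Subgroup.mem_bot] at h3

/-- the elements of `N ∩ LL X y`, second form -/
theorem mem_form2 {a t b : Y} (ha : a ∈ X y) (ht : t ∈ T) (hb : b ∈ X y) (hN : a * t * m * b ∈ NN cs R.nsys) :
    a = 1 ∧ b = 1 := by
  obtain ⟨v, hv⟩ := hN
  have hk : Rp cs R.nsys w (t * m) := by
    have := (rp_of_mem (cs := cs) (hN := R.nsys) ht).mul hm.rp
    rwa [one_mul] at this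
  have e : a * t * m * b = a * (t * m) * b := by group
  have h1 : Cell R.nsys cs h X w (a * t * m * b) := by
    rw [e]
    exact ((cell_of_rp hk).mul_left (RGD.U_le_B (X_le_Pos hy hy0 ha))).mul_right
      (RGD.U_le_B (X_le_Pos hy hy0 hb))
  have h2 : v = w := Cell.unique R (cell_of_rp hv) h1
  subst h2
  obtain ⟨e1, -, e3⟩ := normal_form_unique R (one_mem _) (X_le_Pos hy hy0 ha) hv hk
    (one_mem _) (X_le_NW R hy hy0 hm hb) (by rw [one_mul, mul_one]; exact e)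
  exact ⟨e1.symm, e3.symm⟩

/-- the two forms exclude each other -/
theorem form_ne {a t a' t' b' : Y} (ha : a ∈ X y) (ht : t ∈ T) (ha' : a' ∈ X y) (ht' : t' ∈ T)
    (hb' : b' ∈ X y) (e : a * t = a' * t' * m * b') : False := by
  have h1 : m ∈ RGD.B cs h T X := by
    have : m = t'⁻¹ * a'⁻¹ * (a * t) * b'⁻¹ := by rw [e]; group
    rw [this]
    have hB : ∀ {z}, z ∈ X y → z ∈ RGD.B cs h T X := fun {z} hz => RGD.U_le_B (X_le_Pos hy hy0 hz)
    exact mul_mem (mul_mem (mul_mem (inv_mem (RGD.T_le_B ht')) (inv_mem (hB ha')))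
      (mul_mem (hB ha) (RGD.T_le_B ht))) (inv_mem (hB hb'))
  have h2 := R.eq_one_of_mem_B hm.rp h1
  have h3 := hm.neg R hy
  rw [h2, map_one, Module.End.one_apply] at h3
  apply hy.ne_zero
  have h4 : (2 : ℤ) • y = 0 := by
    rw [two_smul]; nth_rewrite 2 [h3]; simp
  rcases smul_eq_zero.1 h4 with h5 | h5
  · norm_num at h5
  · exact h5

/-- **the index of `N ∩ LL X y` in `LL X y`** -/
theorem two_mul_relIndex [Finite Y] :
    2 * (NN cs R.nsys).relIndex (LL X y) = Nat.card (X y) * (Nat.card (X y) + 1) := by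
  set T1 : Subgroup Y := T ⊓ LL X y with hT1
  have hm' := hm
  -- the cardinality of `LL X y`
  have hc1 : Nat.card (LL X y) = Nat.card T1 * (Nat.card (X y) * (Nat.card (X y) + 1)) := by
    let f : (↥(X y) × ↥T1) ⊕ (↥(X y) × ↥T1 × ↥(X y)) → ↥(LL X y) := fun z =>
      match z with
      | Sum.inl (a, t) => ⟨(a : Y) * t, mul_mem (X_le_LL y a.2) t.2.2⟩
      | Sum.inr (a, t, b) => ⟨(a : Y) * t * m * b,
          mul_mem (mul_mem (mul_mem (X_le_LL y a.2) t.2.2) hm.mem) (X_le_LL y b.2)⟩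
    have hf : Function.Bijective f := by
      constructor
      · rintro (⟨a, t⟩ | ⟨a, t, b⟩) (⟨a', t'⟩ | ⟨a', t', b'⟩) e
        · have e' : (a : Y) * t = a' * t' := congrArg Subtype.val e
          have h1 : (a' : Y)⁻¹ * a = 1 := by
            have h2 : (a' : Y)⁻¹ * a ∈ X y ⊓ T := by
              refine Subgroup.mem_inf.2 ⟨mul_mem (inv_mem a'.2) a.2, ?_⟩
              have : (a' : Y)⁻¹ * a = t' * (t : Y)⁻¹ := by
                rw [inv_mul_eq_iff_eq_mul, ← mul_assoc, ← e']; group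
              rw [this]
              exact mul_mem (show (t' : Y) ∈ T from t'.2.1) (inv_mem (show (t : Y) ∈ T from t.2.1))
            rwa [X_inf_T R hy, Subgroup.mem_bot] at h2
          have h3 : a = a' := Subtype.ext (inv_mul_eq_one.1 h1).symm
          subst h3
          have h4 : t = t' := Subtype.ext (mul_left_cancel e')
          rw [h4]
        · exact (form_ne R hy hy0 hm a.2 t.2.1 a'.2 t'.2.1 b'.2 (congrArg Subtype.val e)).elim
        · exact (form_ne R hy hy0 hm a'.2 t'.2.1 a.2 t.2.1 b.2 (congrArg Subtype.val e).symm).elim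
        · obtain ⟨e1, e2, e3⟩ := form_unique R hy hy0 hm a.2 t.2.1 b.2 a'.2 t'.2.1 b'.2 (congrArg Subtype.val e)
          rw [Subtype.ext e1, Subtype.ext e2, Subtype.ext e3]
      · rintro ⟨g, hg⟩
        rcases form1 R hy hm hg with ⟨a, ha, t, ht, ht', e⟩ | ⟨a, ha, t, ht, ht', b, hb, e⟩
        · exact ⟨Sum.inl (⟨a, ha⟩, ⟨t, ht, ht'⟩), Subtype.ext e.symm⟩
        · exact ⟨Sum.inr (⟨a, ha⟩, ⟨t, ht, ht'⟩, ⟨b, hb⟩), Subtype.ext e.symm⟩
    rw [← Nat.card_congr (Equiv.ofBijective f hf), Nat.card_sum, Nat.card_prod, Nat.card_prod, Nat.card_prod]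
    ring
  -- the cardinality of `N ∩ LL X y`
  have hc2 : Nat.card ↥(NN cs R.nsys ⊓ LL X y) = Nat.card T1 * 2 := by
    let f : ↥T1 ⊕ ↥T1 → ↥(NN cs R.nsys ⊓ LL X y) := fun z =>
      match z with
      | Sum.inl t => ⟨(t : Y), ⟨1, rp_of_mem t.2.1⟩, t.2.2⟩
      | Sum.inr t => ⟨(t : Y) * m, mul_mem (⟨1, rp_of_mem t.2.1⟩ : (t : Y) ∈ NN cs R.nsys) ⟨w, hm.rp⟩,
          mul_mem t.2.2 hm.mem⟩
    have hf : Function.Bijective f := by
      constructor
      · rintro (t | t) (t' | t') e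
        · have e' : (t : Y) = t' := congrArg (fun z : ↥(NN cs R.nsys ⊓ LL X y) => (z : Y)) e
          rw [Subtype.ext e']
        · exfalso
          have e' : (t : Y) = t' * m := congrArg Subtype.val e
          exact form_ne R hy hy0 hm (one_mem _) t.2.1 (one_mem _) t'.2.1 (one_mem _)
            (by rw [one_mul, one_mul, mul_one]; exact e')
        · exfalso
          have e' : (t : Y) * m = t' := congrArg Subtype.val e
          exact form_ne R hy hy0 hm (one_mem _) t'.2.1 (one_mem _) t.2.1 (one_mem _)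
            (by rw [one_mul, one_mul, mul_one]; exact e'.symm)
        · have e' : (t : Y) * m = t' * m := congrArg Subtype.val e
          rw [Subtype.ext (mul_right_cancel e')]
      · rintro ⟨g, hgN, hg⟩
        rcases form1 R hy hm hg with ⟨a, ha, t, ht, ht', e⟩ | ⟨a, ha, t, ht, ht', b, hb, e⟩
        · have h1 := mem_form1 R hy hy0 hm ha ht (by rw [← e]; exact hgN)
          rw [h1, one_mul] at e
          exact ⟨Sum.inl ⟨t, ht, ht'⟩, Subtype.ext e.symm⟩
        · obtain ⟨h1, h2⟩ := mem_form2 R hy hy0 hm ha ht hb (by rw [← e]; exact hgN)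
          rw [h1, h2, one_mul, mul_one] at e
          exact ⟨Sum.inr ⟨t, ht, ht'⟩, Subtype.ext e.symm⟩
    rw [← Nat.card_congr (Equiv.ofBijective f hf), Nat.card_sum]
    ring
  have h1 : (NN cs R.nsys).relIndex (LL X y) * Nat.card ↥(NN cs R.nsys ⊓ LL X y) = Nat.card (LL X y) := by
    exact relIndex_mul_card_inf _ _
  rw [hc1, hc2] at h1
  have h0 : 0 < Nat.card T1 := Nat.card_pos
  have h2 : Nat.card T1 * (2 * (NN cs R.nsys).relIndex (LL X y)) =
      Nat.card T1 * (Nat.card (X y) * (Nat.card (X y) + 1)) := by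
    rw [← h1]; ring
  exact Nat.eq_of_mul_eq_mul_left h0 h2

end Cfsg.Agent.H790.Frm
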