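import Cfsg.Agent.H790.Frm.TwE6
import Cfsg.Agent.H790.Frm.DataTD4
import Cfsg.Agent.Nodes.RGDTwD4
import Cfsg.Agent.ChevalleyStructure.TwD4Card
import Cfsg.Agent.S1067
import Cfsg.Agent.S1106

/-!
# `MeetIn 2` for `³D₄(q)`, `q` odd (helper790)
-/

set_option autoImplicit false
set_option linter.unusedSectionVars false
set_option maxRecDepth 100000

namespace Cfsg.Agent.H790.Frm.Fold.TD4

open CoxeterSystem Cfsg.Agent.ChevalleyStructure.CoxeterGeom Cfsg.Agent.Tits.Roots Cfsg.Agent.Tits.Core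
  Cfsg.Agent.Nodes.Reps Cfsg.Agent.Nodes.BNOf Cfsg.Agent.Nodes.Bruhat Cfsg.Agent.Nodes.RGDChev
  Cfsg.Agent.Nodes.FreeTorus Cfsg.Agent.Nodes.Perp
open Cfsg.Agent.Nodes.RGDFold
open Cfsg.Lie Cfsg.Agent.ChevalleyStructure
  Cfsg.Agent.ChevalleyStructure.TwistedU Cfsg.Agent.ChevalleyStructure.TwistedFix
open Cfsg.Agent.H790.Frm.Chev Cfsg.Agent.Nodes.RGDTwD4
open Cfsg.Agent.ChevalleyStructure.D4Fixed (sig)

theorem ok : OKf chevD4 J DataTD4.fc DataTD4.rp where
  hl := rfl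
  odd := by decide +kernel
  pos := by decide +kernel
  chk := DataTD4.chk
  chkR := DataTD4.chkR
  lt := DataTD4.lt
  rlt := by decide +kernel
  refl := by decide +kernel
  nonneg := by decide +kernel
  ns := by decide +kernel
  comm := by decide +kernel

theorem wd0 : V chevD4 J (DataTD4.rp (DataTD4.fc.fr 0 0)) = [(0 : Fin 2)].foldr (refl A) (sr 1) := by decide +kernel
theorem wd1 : V chevD4 J (DataTD4.rp (DataTD4.fc.fr 0 1)) = [(1 : Fin 2)].foldr (refl A) (sr 0) := by decide +kernel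

theorem simples : chevD4.simple 0 = 18 ∧ chevD4.simple 1 = 14 ∧ chevD4.simple 2 = 13 ∧ chevD4.simple 3 = 12 := by
  decide +kernel

theorem nroots : chevD4.nroots = 24 := by decide +kernel
theorem rank : chevD4.rank = 4 := by decide +kernel

variable {K : Type} [Field K] [Fintype K] {q : ℕ}

/-- torus elements commuting with `x_18(1) x_13(1) x_12(1)` -/
theorem triple_split {t : GL chevD4.Idx K} (ht : t ∈ chevD4.diagonalSubgroup K)
    (h : t * (D4Comm.xG 18 1 * D4Comm.xG 13 1 * D4Comm.xG 12 1) =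
      (D4Comm.xG 18 1 * D4Comm.xG 13 1 * D4Comm.xG 12 1) * t) :
    ∀ r ∈ [18, 13, 12], t * Elts.xG (F := K) hp.inList r 1 * t⁻¹ = Elts.xG hp.inList r 1 := by
  obtain ⟨c, hc0, hcm, hcx⟩ := H190.torus_form hp.inList ht
  let η : ℕ → K := fun r => ∏ i ∈ Finset.range chevD4.rank, c i ^ (chevD4.cartan i r)
  have e : ∀ r < 24, t * Elts.xG (F := K) hp.inList r 1 * t⁻¹ = Elts.xG hp.inList r (η r) := by
    intro r hr
    rw [hcx r (by rw [nroots]; exact hr) 1, mul_one]
  have h1 : lprod (D4Comm.xG : ℕ → K → GL chevD4.Idx K) [18, 13, 12] η =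
      lprod D4Comm.xG [18, 13, 12] (fun _ => 1) := by
    simp only [lprod_cons, lprod_nil, mul_one]
    rw [← xG_eq] at h ⊢
    rw [← e 18 (by norm_num), ← e 13 (by norm_num), ← e 12 (by norm_num)]
    have : t * Elts.xG (F := K) hp.inList 18 1 * t⁻¹ * (t * Elts.xG hp.inList 13 1 * t⁻¹ *
        (t * Elts.xG hp.inList 12 1 * t⁻¹)) =
        t * (Elts.xG hp.inList 18 1 * Elts.xG hp.inList 13 1 * Elts.xG hp.inList 12 1) * t⁻¹ := by group
    rw [this, h, mul_inv_cancel_right, mul_assoc]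
  have h2 := D4Pos.lprod_inj [18, 13, 12] (by decide +kernel) h1
  intro r hr
  have hr24 : r < 24 := by
    simp only [List.mem_cons, List.not_mem_nil, or_false] at hr
    omega
  rw [e r hr24, h2 r hr]

/-- the regular elements -/
noncomputable def xs {φ : K →+* K} (hφ : ∀ x, φ x = x ^ q) : Fin 2 → ↥(twistedD4 K q) :=
  ![⟨D4Comm.xG 14 1, D4U.xG14_mem hφ (map_one φ)⟩, ⟨D4Fixed.X φ 1, D4Fixed.X_mem hφ 1⟩]

theorem meet2 (hq : IsPrimePow q) (hK : Fintype.card K = q ^ 3) (ho : Odd q) :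
    H68.MeetB.MeetIn 2 ↥(twistedD4 K q) := by
  obtain ⟨φ, hφ⟩ := D4Fixed.exists_frob hq hK
  obtain ⟨p, hpK⟩ := CharP.exists K
  have hpf : Fact p.Prime := ⟨CharP.char_is_prime K p⟩
  obtain ⟨n, -, hn⟩ := FiniteField.card K p
  have hp2 : p ≠ 2 := by
    rintro rfl
    rw [hK] at hn
    have h1 : Odd (q ^ 3) := ho.pow
    rw [hn] at h1
    exact absurd h1 (Nat.not_odd_iff_even.2 (Nat.even_pow.2 ⟨even_two, n.pos.ne'⟩))
  let cs : CoxeterSystem CoxeterMatrix.G₂ CoxeterMatrix.G₂.Group := CoxeterMatrix.G₂.toCoxeterSystem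
  have hfW : Finite CoxeterMatrix.G₂.Group := Cfsg.Agent.Nodes.RGDFold.finite_W (hp := hp) cs isCartan foldData
  let _ : Fintype CoxeterMatrix.G₂.Group := Fintype.ofFinite _
  have hle := D4Fixed.twisted_le_fix hK hφ
  have R0 : RGD cs isCartan p (T K q) (Cfsg.Agent.Nodes.RGDTwD4.n hφ)
      (fun z => (R chevD4 hp K J (sig φ) z).subgroupOf (twistedD4 K q)) := rgd cs hK hφ p
  have hroot : ∀ r < chevD4.nroots, IsRoot cs isCartan (V chevD4 J r) := fun r hr =>
    (foldData.isRoot_iff (cs := cs) (h := isCartan) hp.checked (fun i r hr => wp_lt hp (J i) hr) _).2 ⟨r, hr, rfl⟩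
  have hq1 : 1 < q := hq.one_lt
  have hq2 : q % 2 = 1 := Nat.odd_iff.1 ho
  have c0 : Nat.card ↥((R chevD4 hp K J (sig φ) (sr 0)).subgroupOf (twistedD4 K q)) = q := by
    rw [Cfsg.Agent.Nodes.RGDTwD4.R0]
    refine Eq.trans ?_ (TwD4Card.card_X0 hq1 hK hφ hle)
    exact Nat.card_congr
      { toFun := fun x => ⟨x.1.1, (Subgroup.mem_inf.1 (Subgroup.mem_subgroupOf.1 x.2)).1, x.1.2⟩
        invFun := fun x => ⟨⟨x.1, x.2.2⟩, Subgroup.mem_subgroupOf.2 (Subgroup.mem_inf.2 ⟨x.2.1, hle x.2.2⟩)⟩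
        left_inv := fun x => rfl
        right_inv := fun x => rfl }
  have c1 : Nat.card ↥((R chevD4 hp K J (sig φ) (sr 1)).subgroupOf (twistedD4 K q)) = q ^ 3 := by
    rw [R1]
    refine Eq.trans ?_ (TwD4Card.card_X1 hK hφ hle)
    exact Nat.card_congr
      { toFun := fun x => ⟨x.1.1, (Subgroup.mem_inf.1 (Subgroup.mem_subgroupOf.1 x.2)).1, x.1.2⟩
        invFun := fun x => ⟨⟨x.1, x.2.2⟩, Subgroup.mem_subgroupOf.2 (Subgroup.mem_inf.2 ⟨x.2.1, hle x.2.2⟩)⟩
        left_inv := fun x => rfl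
        right_inv := fun x => rfl }
  refine meetIn_of_frame (frame cs isCartan foldData ok R0 hroot) hp2 ?_ (index_odd cs isCartan foldData ok) ?_
    (x := xs hφ) ?_ ?_ ?_
  · exact fun a i => ok.ns a a.2 i
  · have e0 : Nat.card ↥((R chevD4 hp K J (sig φ) (V chevD4 J (DataTD4.rp
        (DataTD4.fc.fr 0 0)))).subgroupOf (twistedD4 K q)) = q ^ 3 := by
      rw [wd0, (card_foldr R0 1 [0]).1, c1]
    have e1 : Nat.card ↥((R chevD4 hp K J (sig φ) (V chevD4 J (DataTD4.rp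
        (DataTD4.fc.fr 0 1)))).subgroupOf (twistedD4 K q)) = q := by
      rw [wd1, (card_foldr R0 0 [1]).1, c0]
    have e2 : Nat.card ↥(T K q) = Nat.card ↥(chevD4.diagonalSubgroup K ⊓ twistedD4 K q) :=
      Nat.card_congr (Subgroup.subgroupOfEquivOfLe inf_le_right).toEquiv
    have h1 := congrArg (padicValNat 2) (Cfsg.Agent.S1067.result hq hK)
    have h2 := congrArg (padicValNat 2) (Cfsg.Agent.S1106.result hq hK)
    have hk : ∀ k, k ≠ 0 → q ^ k - 1 ≠ 0 := fun k hk => by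
      have := Nat.one_lt_pow hk hq1
      omega
    have hqN : q ^ 12 ≠ 0 := pow_ne_zero _ (by omega)
    have hvq : padicValNat 2 (q ^ 12) = 0 := by
      rw [padicValNat.pow, padicValNat.eq_zero_of_not_dvd (by omega), mul_zero]
    have hv8 : padicValNat 2 (q ^ 8 + q ^ 4 + 1) = 0 := by
      refine padicValNat.eq_zero_of_not_dvd ?_
      have e8 : Odd (q ^ 8) := ho.pow
      have e4 : Odd (q ^ 4) := ho.pow
      exact ((e8.add_odd e4).add_one).not_two_dvd_nat
    have hv3 : padicValNat 2 (q ^ 2 + q + 1) = 0 := by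
      refine padicValNat.eq_zero_of_not_dvd ?_
      have e2 : Odd (q ^ 2) := ho.pow
      exact ((e2.add_odd ho).add_one).not_two_dvd_nat
    have m1 := mul_ne_zero hqN (hk 2 (by norm_num))
    have m2 := mul_ne_zero m1 (hk 6 (by norm_num))
    rw [padicValNat.mul m2 (Nat.succ_ne_zero (q ^ 8 + q ^ 4)), padicValNat.mul m1 (hk 6 (by norm_num)),
      padicValNat.mul hqN (hk 2 (by norm_num)), hvq, hv8] at h1
    rw [padicValNat.mul (pow_ne_zero _ (by omega)) (Nat.succ_ne_zero (q ^ 2 + q)), padicValNat.pow, hv3] at h2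
    have v2 := val_even hq2 hq1 (k := 2) (by norm_num) (by decide)
    have v6 := val_even hq2 hq1 (k := 6) (by norm_num) (by decide)
    have w2 : padicValNat 2 2 = 1 := by simp
    have w6 : padicValNat 2 6 = 1 := by
      rw [show 6 = 2 * 3 by norm_num, padicValNat.mul (by norm_num) (by norm_num), w2,
        padicValNat.eq_zero_of_not_dvd (by norm_num)]
    have wW : padicValNat 2 (Nat.card CoxeterMatrix.G₂.Group) = 2 := by
      rw [S1092.result (⟨2, CoxeterMatrix.G₂⟩, 12) (by simp)]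
      change padicValNat 2 12 = 2
      rw [show 12 = 2 ^ 2 * 3 by norm_num, padicValNat.mul (by norm_num) (by norm_num), padicValNat.prime_pow,
        padicValNat.eq_zero_of_not_dvd (by norm_num)]
    have v3 := val_odd_add hq2 hq1 (k := 3) (by decide)
    have hsum : ∑ j : Fin DataTD4.fc.b, padicValNat 2 (Nat.card ↥((R chevD4 hp K J (sig φ) (V chevD4 J (DataTD4.rp
        (DataTD4.fc.fr 0 j)))).subgroupOf (twistedD4 K q)) + 1) =
        padicValNat 2 (q ^ 3 + 1) + padicValNat 2 (q + 1) := by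
      exact (Fin.sum_univ_two _).trans (congrArg₂ (· + ·) (congrArg (fun z => padicValNat 2 (z + 1)) e0)
        (congrArg (fun z => padicValNat 2 (z + 1)) e1))
    rw [e2, Fintype.card_fin, wW, hsum]
    have hb : DataTD4.fc.b = 2 := rfl
    rw [hb]
    omega
  · intro i
    rw [Subgroup.mem_subgroupOf]
    fin_cases i
    · change (D4Comm.xG 14 1 : GL chevD4.Idx K) ∈ R chevD4 hp K J (sig φ) (sr 0)
      rw [Cfsg.Agent.Nodes.RGDTwD4.R0]
      exact ⟨mem_rspan _ (S := {k | k ∈ [14]}) (by simp) _, hle (D4U.xG14_mem hφ (map_one φ))⟩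
    · change D4Fixed.X φ 1 ∈ R chevD4 hp K J (sig φ) (sr 1)
      rw [Cfsg.Agent.Nodes.RGDTwD4.R1]
      exact ⟨D4Twisted.X_mem_RS _, hle (D4Fixed.X_mem hφ _)⟩
  · intro i hi
    have h1 : ((xs hφ i : ↥(twistedD4 K q)) : GL chevD4.Idx K) = 1 := by rw [hi]; rfl
    revert h1
    fin_cases i
    · exact fun h1 => one_ne_zero ((D4RGD.xG_eq_one_iff (by norm_num) _).1 h1)
    · intro h1
      change D4Fixed.X φ 1 = 1 at h1
      have h2 : D4Fixed.X φ (1 : K) = D4Fixed.X φ 0 := by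
        rw [h1]
        unfold D4Fixed.X
        simp only [map_zero, D4U.xU_eq, D4Comm.xG_zero, mul_one]
      exact one_ne_zero (TwD4Card.X_inj h2)
  · rintro ⟨t, htG⟩ ht hcomm
    have ht' : t ∈ chevD4.diagonalSubgroup K := (Subgroup.mem_inf.1 (Subgroup.mem_subgroupOf.1 ht)).1
    have h0 : t * D4Comm.xG 14 1 = D4Comm.xG 14 1 * t := congrArg Subtype.val (hcomm 0)
    have h1 : t * D4Fixed.X φ 1 = D4Fixed.X φ 1 * t := congrArg Subtype.val (hcomm 1)
    unfold D4Fixed.X at h1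
    rw [map_one, map_one, D4U.xU_eq, D4U.xU_eq, D4U.xU_eq] at h1
    have h2 := triple_split ht' h1
    rw [← xG_eq] at h0
    refine Subtype.ext (torus_eq_one hp.inList ht' fun i hi => ⟨1, one_ne_zero, ?_⟩)
    rw [rank] at hi
    obtain ⟨s0, s1, s2, s3⟩ := simples
    interval_cases i
    · rw [s0]; exact h2 18 (by simp)
    · rw [s1, h0, mul_inv_cancel_right]
    · rw [s2]; exact h2 13 (by simp)
    · rw [s3]; exact h2 12 (by simp)

end Cfsg.Agent.H790.Frm.Fold.TD4
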