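import Cfsg.Agent.H790.Frm.Fold
import Cfsg.Agent.H790.Frm.DataTE6
import Cfsg.Agent.Nodes.RGDTwE6
import Cfsg.Agent.ChevalleyStructure.TwE6Card
import Cfsg.Agent.S1066
import Cfsg.Agent.S1092
import Cfsg.Agent.S1102

/-!
# `MeetIn 2` for `²E₆(q)`, `q` odd (helper790)
-/

set_option autoImplicit false
set_option linter.unusedSectionVars false
set_option maxRecDepth 100000

namespace Cfsg.Agent.H790.Frm.Fold

open CoxeterSystem Cfsg.Agent.ChevalleyStructure.CoxeterGeom Cfsg.Agent.Tits.Roots Cfsg.Agent.Tits.Core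
  Cfsg.Agent.Nodes.Reps Cfsg.Agent.Nodes.BNOf Cfsg.Agent.Nodes.Bruhat Cfsg.Agent.Nodes.RGDChev
  Cfsg.Agent.Nodes.FreeTorus Cfsg.Agent.Nodes.Perp
open Cfsg.Agent.Nodes.RGDFold
open Cfsg.Lie Cfsg.Agent.ChevalleyStructure Cfsg.Agent.ChevalleyStructure.Elts
  Cfsg.Agent.ChevalleyStructure.TwistedU Cfsg.Agent.ChevalleyStructure.TwistedFix
open Cfsg.Agent.H790.Frm.Chev

universe u

/-- the order of the root groups is constant on orbits -/
theorem card_foldr {m : ℕ} {M : CoxeterMatrix (Fin m)} {W Y : Type*} [Group W] [Group Y] {cs : CoxeterSystem M W}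
    {A : Fin m → Fin m → ℤ} {h : IsCartan M A} {p : ℕ} {T : Subgroup Y} {n : Fin m → Y}
    {X : (Fin m → ℤ) → Subgroup Y} (R : RGD cs h p T n X) (i : Fin m) (ω : List (Fin m)) :
    Nat.card ↥(X (ω.foldr (refl A) (sr i))) = Nat.card ↥(X (sr i)) ∧ IsRoot cs h (ω.foldr (refl A) (sr i)) := by
  induction ω with
  | nil => exact ⟨rfl, isRoot_sr cs h i⟩
  | cons j ω ih =>
    rw [List.foldr_cons]
    have e : Cfsg.Agent.Nodes.RGDFold.refl A j (ω.foldr (refl A) (sr i)) =
        rep cs h (cs.simple j) (ω.foldr (refl A) (sr i)) := (rep_refl j _).symm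
    refine ⟨?_, ?_⟩
    · rw [e, ← R.conj j _ ih.2, ← ih.1]
      exact (Nat.card_congr (Subgroup.equivMapOfInjective _ (MulAut.conj (n j)).toMonoidHom
        (MulAut.conj (n j)).injective).toEquiv).symm
    · rw [e]
      exact ih.2.act _

/-- different root groups are disjoint -/
theorem xG_disj {D : ChevalleyDatum} {l : ℕ} {M : CoxeterMatrix (Fin l)} (hp : IsType D l M) {K : Type u} [Field K]
    [Finite K] {r s : ℕ} (hr : r < D.nroots) (hs : s < D.nroots) (hrs : r ≠ s) {a b : K}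
    (h : xG hp.inList r a = xG hp.inList s b) : a = 0 := by
  obtain ⟨p, hpK⟩ := CharP.exists K
  have hpf : Fact p.Prime := ⟨CharP.char_is_prime K p⟩
  let cs : CoxeterSystem M M.Group := M.toCoxeterSystem
  have hfW : Finite M.Group := finite_W hp cs
  have R := rgd_GL (K := K) hp cs p
  have h1 := Cfsg.Agent.Nodes.OppDec.X_inf_X R (isRoot_vec hp cs hr) (isRoot_vec hp cs hs)
    (fun e => hrs (vec_inj hp hr hs e))
  rw [XV_vec hp K hr, XV_vec hp K hs] at h1
  have h2 : xG hp.inList r a ∈ D.rootSubgroup K r ⊓ D.rootSubgroup K s :=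
    ⟨xG_mem_rootSubgroup _ _ _, by rw [h]; exact xG_mem_rootSubgroup _ _ _⟩
  rw [h1, Subgroup.mem_bot] at h2
  exact (xG_eq_one_iff hp.inList hr a).1 h2

/-- torus elements commuting with `x_r(1) x_s(1)` -/
theorem pair_split {D : ChevalleyDatum} {l : ℕ} {M : CoxeterMatrix (Fin l)} (hp : IsType D l M) {K : Type u} [Field K]
    [Finite K] {r s : ℕ} (hr : r < D.nroots) (hs : s < D.nroots) (hrs : r ≠ s) {t : GL D.Idx K}
    (ht : t ∈ D.diagonalSubgroup K)
    (h : t * (xG hp.inList r 1 * xG hp.inList s 1) = (xG hp.inList r 1 * xG hp.inList s 1) * t) :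
    t * xG hp.inList r 1 * t⁻¹ = xG hp.inList r 1 ∧ t * xG hp.inList s 1 * t⁻¹ = xG hp.inList s 1 := by
  obtain ⟨c, hc0, hcm, hcx⟩ := H190.torus_form hp.inList ht
  have h1 := hcx r hr 1
  have h2 := hcx s hs 1
  rw [mul_one] at h1 h2
  set η := ∏ i ∈ Finset.range D.rank, c i ^ (D.cartan i r)
  set ζ := ∏ i ∈ Finset.range D.rank, c i ^ (D.cartan i s)
  have h3 : xG hp.inList r η * xG hp.inList s ζ = xG hp.inList r 1 * xG hp.inList s 1 := by
    rw [← h1, ← h2]
    have : t * xG hp.inList r 1 * t⁻¹ * (t * xG hp.inList s 1 * t⁻¹) =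
        t * (xG hp.inList r 1 * xG hp.inList s 1) * t⁻¹ := by group
    rw [this, h, mul_inv_cancel_right]
  have h4 : xG hp.inList r (-1 + η) = xG hp.inList s (1 + -ζ) := by
    rw [← xG_add, ← xG_add, ← xG_inv, ← xG_inv, eq_mul_inv_iff_mul_eq, mul_assoc, h3, inv_mul_cancel_left]
  have h5 := xG_disj hp hr hs hrs h4
  have h6 := xG_disj hp hs hr hrs.symm h4.symm
  have e1 : η = 1 := by linear_combination h5
  have e2 : ζ = 1 := by linear_combination -h6
  rw [h1, h2, e1, e2]
  exact ⟨rfl, rfl⟩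

namespace TE6

open Cfsg.Agent.Nodes.RGDTwE6
open Cfsg.Agent.ChevalleyStructure.TwE6Basic (posE negE sg fix n exists_frob twisted_le_fix single_mem pair_mem)
open Cfsg.Agent.ChevalleyStructure.TwE6BN (rs x_mem_rs single0 single1 pair2 pair3)

theorem ok : OKf chevE6 J DataTE6.fc DataTE6.rp where
  hl := rfl
  odd := by decide +kernel
  pos := by decide +kernel
  chk := DataTE6.chk
  chkR := DataTE6.chkR
  lt := DataTE6.lt
  rlt := by decide +kernel
  refl := by decide +kernel
  nonneg := by decide +kernel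
  ns := by decide +kernel
  comm := by decide +kernel

/-- words for the roots of the frame -/
def wd : ℕ → List (Fin 4) := fun a => [[0], [0, 2], [0, 3, 2], [1, 2, 1, 0, 3, 2]].getD a []

theorem wd_eq : ∀ a < DataTE6.fc.b, V chevE6 J (DataTE6.rp (DataTE6.fc.fr 0 a)) = (wd a).foldr (refl A) (sr 1) := by
  decide +kernel

theorem simples : chevE6.simple 0 = 56 ∧ chevE6.simple 1 = 46 ∧ chevE6.simple 2 = 42 ∧ chevE6.simple 3 = 39 ∧
    chevE6.simple 4 = 37 ∧ chevE6.simple 5 = 36 := by decide +kernel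

theorem nroots : chevE6.nroots = 72 := by decide +kernel
theorem rank : chevE6.rank = 6 := by decide +kernel

variable {K : Type} [Field K] [Fintype K] {q : ℕ}

/-- the regular elements -/
def xs (K : Type) [Field K] (q : ℕ) : Fin 4 → ↥(twistedE6 K q) :=
  ![⟨xG hp.inList 46 1, single_mem (one_pow q) (by simp)⟩, ⟨xG hp.inList 39 1, single_mem (one_pow q) (by simp)⟩,
    ⟨xG hp.inList 42 1 * xG hp.inList 37 (1 ^ q), pair_mem (K := K) (q := q) 1 (rs := (42, 37)) (by simp)⟩,
    ⟨xG hp.inList 56 1 * xG hp.inList 36 (1 ^ q), pair_mem (K := K) (q := q) 1 (rs := (56, 36)) (by simp)⟩]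

theorem meet2 (hq : IsPrimePow q) (hK : Fintype.card K = q ^ 2) (ho : Odd q) :
    H68.MeetB.MeetIn 2 ↥(twistedE6 K q) := by
  obtain ⟨φ, hφ, hqq⟩ := exists_frob hq hK
  obtain ⟨p, hpK⟩ := CharP.exists K
  have hpf : Fact p.Prime := ⟨CharP.char_is_prime K p⟩
  obtain ⟨n, -, hn⟩ := FiniteField.card K p
  have hp2 : p ≠ 2 := by
    rintro rfl
    rw [hK] at hn
    have h1 : Odd (q ^ 2) := ho.pow
    rw [hn] at h1
    exact absurd h1 (Nat.not_odd_iff_even.2 (Nat.even_pow.2 ⟨even_two, n.pos.ne'⟩))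
  let cs : CoxeterSystem CoxeterMatrix.F₄ CoxeterMatrix.F₄.Group := CoxeterMatrix.F₄.toCoxeterSystem
  have hfW : Finite CoxeterMatrix.F₄.Group := Cfsg.Agent.Nodes.RGDFold.finite_W (hp := hp) cs isCartan foldData
  let _ : Fintype CoxeterMatrix.F₄.Group := Fintype.ofFinite _
  have R0 : RGD cs isCartan p (T K q) (nn hφ) (fun z => (R chevE6 hp K J (sg φ) z).subgroupOf (twistedE6 K q)) :=
    rgd cs hφ hqq p
  have hroot : ∀ r < chevE6.nroots, IsRoot cs isCartan (V chevE6 J r) := fun r hr =>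
    (foldData.isRoot_iff (cs := cs) (h := isCartan) hp.checked (fun i r hr => wp_lt hp (J i) hr) _).2 ⟨r, hr, rfl⟩
  have hq1 : 1 < q := hq.one_lt
  have hq2 : q % 2 = 1 := Nat.odd_iff.1 ho
  have hle := twisted_le_fix φ hφ hqq
  refine meetIn_of_frame (frame cs isCartan foldData ok R0 hroot) hp2 ?_ (index_odd cs isCartan foldData ok) ?_
    (x := xs K q) ?_ ?_ ?_
  · exact fun a i => ok.ns a a.2 i
  · have e1 : ∀ a : Fin DataTE6.fc.b, Nat.card ↥((R chevE6 hp K J (sg φ) (V chevE6 J (DataTE6.rp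
        (DataTE6.fc.fr 0 a)))).subgroupOf (twistedE6 K q)) = q := by
      intro a
      rw [wd_eq a a.2, (card_foldr R0 1 (wd a)).1, R_pos]
      refine Eq.trans ?_ (TwE6Card.card_single φ hφ hqq hq1 hK single1)
      exact Nat.card_congr
        { toFun := fun x => ⟨x.1.1, (Subgroup.mem_inf.1 (Subgroup.mem_subgroupOf.1 x.2)).1, x.1.2⟩
          invFun := fun x => ⟨⟨x.1, x.2.2⟩, Subgroup.mem_subgroupOf.2 (Subgroup.mem_inf.2 ⟨x.2.1, hle x.2.2⟩)⟩
          left_inv := fun x => rfl
          right_inv := fun x => rfl }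
    have e2 : Nat.card ↥(T K q) = Nat.card ↥(chevE6.diagonalSubgroup K ⊓ twistedE6 K q) :=
      Nat.card_congr (Subgroup.subgroupOfEquivOfLe inf_le_right).toEquiv
    have h1 := congrArg (padicValNat 2) (Cfsg.Agent.S1066.result hq hK)
    have h2 := congrArg (padicValNat 2) (Cfsg.Agent.S1102.result hq hK)
    have hg : Nat.gcd 3 (q + 1) ≠ 0 := (Nat.gcd_pos_of_pos_left _ (by norm_num)).ne'
    have hk : ∀ k, k ≠ 0 → q ^ k - 1 ≠ 0 := fun k hk => by
      have := Nat.one_lt_pow hk hq1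
      omega
    have hqN : q ^ 36 ≠ 0 := pow_ne_zero _ (by omega)
    have hvq : padicValNat 2 (q ^ 36) = 0 := by
      rw [padicValNat.pow, padicValNat.eq_zero_of_not_dvd (by omega), mul_zero]
    have m1 := mul_ne_zero hqN (hk 2 (by norm_num))
    have m2 := mul_ne_zero m1 (Nat.succ_ne_zero (q ^ 5))
    have m3 := mul_ne_zero m2 (hk 6 (by norm_num))
    have m4 := mul_ne_zero m3 (hk 8 (by norm_num))
    have m5 := mul_ne_zero m4 (Nat.succ_ne_zero (q ^ 9))
    rw [padicValNat.mul hg Nat.card_pos.ne', padicValNat.mul m5 (hk 12 (by norm_num)),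
      padicValNat.mul m4 (Nat.succ_ne_zero (q ^ 9)), padicValNat.mul m3 (hk 8 (by norm_num)),
      padicValNat.mul m2 (hk 6 (by norm_num)), padicValNat.mul m1 (Nat.succ_ne_zero (q ^ 5)),
      padicValNat.mul hqN (hk 2 (by norm_num)), hvq, val_odd_add hq2 hq1 (by decide), val_odd_add hq2 hq1 (by decide)]
      at h1
    rw [padicValNat.mul hg Nat.card_pos.ne', padicValNat.mul (pow_ne_zero _ (by omega)) (pow_ne_zero _ (by omega)),
      padicValNat.pow, padicValNat.pow] at h2
    have v2 := val_even hq2 hq1 (k := 2) (by norm_num) (by decide)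
    have v6 := val_even hq2 hq1 (k := 6) (by norm_num) (by decide)
    have v8 := val_even hq2 hq1 (k := 8) (by norm_num) (by decide)
    have v12 := val_even hq2 hq1 (k := 12) (by norm_num) (by decide)
    have w2 : padicValNat 2 2 = 1 := by simp
    have w6 : padicValNat 2 6 = 1 := by
      rw [show 6 = 2 * 3 by norm_num, padicValNat.mul (by norm_num) (by norm_num), w2,
        padicValNat.eq_zero_of_not_dvd (by norm_num)]
    have w8 : padicValNat 2 8 = 3 := by
      rw [show 8 = 2 ^ 3 by norm_num, padicValNat.prime_pow]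
    have w12 : padicValNat 2 12 = 2 := by
      rw [show 12 = 2 ^ 2 * 3 by norm_num, padicValNat.mul (by norm_num) (by norm_num), padicValNat.prime_pow,
        padicValNat.eq_zero_of_not_dvd (by norm_num)]
    have wW : padicValNat 2 (Nat.card CoxeterMatrix.F₄.Group) = 7 := by
      rw [S1092.result (⟨4, CoxeterMatrix.F₄⟩, 1152) (by simp)]
      change padicValNat 2 1152 = 7
      rw [show 1152 = 2 ^ 7 * 9 by norm_num, padicValNat.mul (by norm_num) (by norm_num), padicValNat.prime_pow,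
        padicValNat.eq_zero_of_not_dvd (by norm_num)]
    have hb : DataTE6.fc.b = 4 := rfl
    rw [e2, Fintype.card_fin, wW]
    simp only [e1]
    rw [Finset.sum_const, Finset.card_univ, Fintype.card_fin, smul_eq_mul, hb]
    omega
  · intro i
    rw [Subgroup.mem_subgroupOf, R_pos]
    fin_cases i
    · exact ⟨x_mem_rs (by simp [posE]) 1, hle (xs K q 0).2⟩
    · exact ⟨x_mem_rs (by simp [posE]) 1, hle (xs K q 1).2⟩
    · exact ⟨mul_mem (x_mem_rs (by simp [posE]) 1) (x_mem_rs (by simp [posE]) (1 ^ q)), hle (xs K q 2).2⟩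
    · exact ⟨mul_mem (x_mem_rs (by simp [posE]) 1) (x_mem_rs (by simp [posE]) (1 ^ q)), hle (xs K q 3).2⟩
  · have hp1 : ∀ {r s : ℕ}, r < 72 → s < 72 → r ≠ s →
        xG hp.inList r (1 : K) * xG hp.inList s (1 ^ q) ≠ 1 := by
      intro r s hr hs hrs h
      have h1 : xG hp.inList r (1 : K) = xG hp.inList s (-1) := by
        rw [one_pow] at h
        rw [← xG_inv]
        exact eq_inv_of_mul_eq_one_left h
      exact one_ne_zero (xG_disj hp (by rw [nroots]; exact hr) (by rw [nroots]; exact hs) hrs h1)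
    intro i hi
    have h1 : ((xs K q i : ↥(twistedE6 K q)) : GL chevE6.Idx K) = 1 := by rw [hi]; rfl
    revert h1
    fin_cases i
    · exact fun h1 => one_ne_zero ((xG_eq_one_iff hp.inList (by rw [nroots]; norm_num) _).1 h1)
    · exact fun h1 => one_ne_zero ((xG_eq_one_iff hp.inList (by rw [nroots]; norm_num) _).1 h1)
    · exact fun h1 => hp1 (by norm_num) (by norm_num) (by norm_num) h1
    · exact fun h1 => hp1 (by norm_num) (by norm_num) (by norm_num) h1
  · rintro ⟨t, htG⟩ ht hcomm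
    have ht' : t ∈ chevE6.diagonalSubgroup K := (Subgroup.mem_inf.1 (Subgroup.mem_subgroupOf.1 ht)).1
    have h0 : t * xG hp.inList 46 1 = xG hp.inList 46 1 * t := congrArg Subtype.val (hcomm 0)
    have h1 : t * xG hp.inList 39 1 = xG hp.inList 39 1 * t := congrArg Subtype.val (hcomm 1)
    have h2 : t * (xG hp.inList 42 1 * xG hp.inList 37 (1 ^ q)) = xG hp.inList 42 1 * xG hp.inList 37 (1 ^ q) * t :=
      congrArg Subtype.val (hcomm 2)
    have h3 : t * (xG hp.inList 56 1 * xG hp.inList 36 (1 ^ q)) = xG hp.inList 56 1 * xG hp.inList 36 (1 ^ q) * t :=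
      congrArg Subtype.val (hcomm 3)
    rw [one_pow] at h2 h3
    have h2' := pair_split hp (by rw [nroots]; norm_num) (by rw [nroots]; norm_num) (by norm_num) ht' h2
    have h3' := pair_split hp (by rw [nroots]; norm_num) (by rw [nroots]; norm_num) (by norm_num) ht' h3
    refine Subtype.ext (torus_eq_one hp.inList ht' fun i hi => ⟨1, one_ne_zero, ?_⟩)
    rw [rank] at hi
    obtain ⟨s0, s1, s2, s3, s4, s5⟩ := simples
    interval_cases i
    · rw [s0]; exact h3'.1
    · rw [s1, h0, mul_inv_cancel_right]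
    · rw [s2]; exact h2'.1
    · rw [s3, h1, mul_inv_cancel_right]
    · rw [s4]; exact h2'.2
    · rw [s5]; exact h3'.2

end TE6

end Cfsg.Agent.H790.Frm.Fold
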